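import Cfsg.Agent.ClassicalGeometry.SympIso
import Cfsg.Agent.H251.GeoCardC
import Cfsg.Agent.H921.SympDim
import Cfsg.Agent.H888.C6.FTHom
import Cfsg.Agent.H919.AschSplit
import Cfsg.Agent.H919.AschWreath
import Cfsg.Agent.FastGrp
import Cfsg.Agent.Prune
set_option linter.all false
prune_inst 0x7fffb9fdfbbc7fffdfff7e77aefeddfc1b931fffeffffd4bffe861ff0f9f03840fc5fbaf89e010fe1eb6e21410a87843fb7eeeffea6fdc7ffffd5ff41ffbee5ff5f7b508519c98b40fbc2fff03f07f8a7f3fffffffffffffffffffffffffffbeffbfffffffff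
open scoped Cfsg.Agent.FastGrp

-- part: H888/C6/QF
section
/-!
# Quadratic forms over the field of two elements with polar form `sympForm` (helper888)

* `IsQ.exQ2`, `IsQ.exQ1` : values of the form on hyperplanes and codimension two subspaces;
* `IsQ.trans` : transitivity of the group generated by products of two transvections;
* `IsQ.card_one`, `IsQ.card_zero` : numbers of vectors (Gauss sum).
-/

set_option autoImplicit false

namespace Cfsg.Agent.H888.C6

open Cfsg Cfsg.Agent.ClassicalGeometry.SympBasic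

/-- the space -/
abbrev V2 (k : ℕ) : Type := Fin k ⊕ Fin k → ZMod 2

/-- the form -/
abbrev bf {k : ℕ} (v w : V2 k) : ZMod 2 := sympForm k (ZMod 2) v w

theorem z2 : ∀ a : ZMod 2, a = 0 ∨ a = 1 := by decide
theorem z2_ne : (1 : ZMod 2) ≠ 0 := by decide
theorem z2_two : ∀ a : ZMod 2, a + a = 0 := by decide

variable {k : ℕ}

theorem v2_two (v : V2 k) : v + v = 0 := funext fun i => z2_two (v i)

theorem v2_eq_of_add {v w : V2 k} (h : v + w = 0) : v = w := by
  calc v = v + (w + w) := by rw [v2_two, add_zero]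
    _ = w := by rw [← add_assoc, h, zero_add]

theorem bf_comm (v w : V2 k) : bf v w = bf w v := by
  rw [bf, sympForm_swap]
  exact neg_eq_of_add_eq_zero_left (z2_two _)

theorem bf_add_left (u v w : V2 k) : bf (u + v) w = bf u w + bf v w := sympForm_add_left _ _ _
theorem bf_add_right (u v w : V2 k) : bf u (v + w) = bf u v + bf u w := sympForm_add_right _ _ _
theorem bf_self (v : V2 k) : bf v v = 0 := sympForm_self v
theorem bf_zero_left (v : V2 k) : bf (0 : V2 k) v = 0 := sympForm_zero_left v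
theorem bf_zero_right (v : V2 k) : bf v (0 : V2 k) = 0 := sympForm_zero_right v

theorem exists_bf_one {v : V2 k} (hv : v ≠ 0) : ∃ w, bf w v = 1 := by
  by_contra hcon
  push Not at hcon
  exact hv (eq_zero_of_forall_sympForm_left fun w => (z2 _).resolve_right (hcon w))

/-- A quadratic form with polar form `bf`. -/
structure IsQ (q : V2 k → ZMod 2) : Prop where
  add : ∀ v w, q (v + w) = q v + q w + bf v w

namespace IsQ

variable {q : V2 k → ZMod 2} (hq : IsQ q)

include hq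

theorem zero : q 0 = 0 := by
  have h := hq.add 0 0
  rw [add_zero, bf_self, add_zero, z2_two] at h
  exact h

end IsQ

/-- two functionals on the space have independent values -/
theorem exists_bf_pair {a b : V2 k} (ha : a ≠ 0) (hb : b ≠ 0) (hab : a ≠ b) (α β : ZMod 2) :
    ∃ v, bf v a = α ∧ bf v b = β := by
  obtain ⟨x, hx⟩ := exists_bf_one ha
  obtain ⟨y, hy⟩ := exists_bf_one hb
  have hab' : a + b ≠ 0 := fun h => hab (v2_eq_of_add h)
  obtain ⟨z, hz⟩ := exists_bf_one hab'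
  rw [bf_add_right] at hz
  -- vectors with values (1,0) and (0,1)
  have h10 : ∃ v, bf v a = 1 ∧ bf v b = 0 := by
    rcases z2 (bf x b) with h | h
    · exact ⟨x, hx, h⟩
    · rcases z2 (bf z a) with h1 | h1
      · have h3 : bf z b = 1 := by rw [h1, zero_add] at hz; exact hz
        refine ⟨x + z, ?_, ?_⟩
        · rw [bf_add_left, hx, h1, add_zero]
        · rw [bf_add_left, h, h3, z2_two]
      · have h3 : bf z b = 0 := by
          rw [h1] at hz
          rcases z2 (bf z b) with h4 | h4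
          · exact h4
          · rw [h4] at hz; exact absurd hz (by decide)
        exact ⟨z, h1, h3⟩
  have h01 : ∃ v, bf v a = 0 ∧ bf v b = 1 := by
    obtain ⟨v, h1, h3⟩ := h10
    rcases z2 (bf y a) with h | h
    · exact ⟨y, h, hy⟩
    · refine ⟨y + v, ?_, ?_⟩
      · rw [bf_add_left, h, h1, z2_two]
      · rw [bf_add_left, hy, h3, add_zero]
  obtain ⟨v, h1, h3⟩ := h10
  obtain ⟨w, h5, h6⟩ := h01
  rcases z2 α with rfl | rfl <;> rcases z2 β with rfl | rfl
  · exact ⟨0, bf_zero_left _, bf_zero_left _⟩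
  · exact ⟨w, h5, h6⟩
  · exact ⟨v, h1, h3⟩
  · refine ⟨v + w, ?_, ?_⟩
    · rw [bf_add_left, h1, h5, add_zero]
    · rw [bf_add_left, h3, h6, zero_add]

/-- the codimension two subspace is not totally isotropic -/
theorem exists_perp_pair (hk : 3 ≤ k) (a b : V2 k) :
    ∃ u u' : V2 k, bf u a = 0 ∧ bf u b = 0 ∧ bf u' a = 0 ∧ bf u' b = 0 ∧ bf u u' = 1 := by
  classical
  by_contra hcon
  push Not at hcon
  -- the subspace
  let B := sympBilin k (ZMod 2)
  let f : V2 k →ₗ[ZMod 2] (Fin 2 → ZMod 2) := LinearMap.pi ![B.flip a, B.flip b]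
  have hf : ∀ v, v ∈ LinearMap.ker f ↔ bf v a = 0 ∧ bf v b = 0 := by
    intro v
    rw [LinearMap.mem_ker]
    constructor
    · intro h
      exact ⟨congrFun h 0, congrFun h 1⟩
    · rintro ⟨h1, h3⟩
      funext i
      fin_cases i
      · exact h1
      · exact h3
  have hiso : LinearMap.ker f ≤ LinearMap.BilinForm.orthogonal B (LinearMap.ker f) := by
    intro u hu
    rw [LinearMap.BilinForm.mem_orthogonal_iff]
    intro u' hu'
    have h1 := (hf u).1 hu
    have h3 := (hf u').1 hu'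
    exact (z2 _).resolve_right (hcon u' u h3.1 h3.2 h1.1 h1.2)
  have hrank : Module.finrank (ZMod 2) (LinearMap.range f) + Module.finrank (ZMod 2) (LinearMap.ker f) =
      Module.finrank (ZMod 2) (V2 k) := LinearMap.finrank_range_add_finrank_ker f
  have h2k : Module.finrank (ZMod 2) (V2 k) = 2 * k := by
    rw [Module.finrank_fintype_fun_eq_card, Fintype.card_sum, Fintype.card_fin]; ring
  have h1 : Module.finrank (ZMod 2) (LinearMap.range f) ≤ 2 := by
    refine (Submodule.finrank_le _).trans ?_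
    rw [Module.finrank_fintype_fun_eq_card, Fintype.card_fin]
  have h3 : Module.finrank (ZMod 2) (LinearMap.BilinForm.orthogonal B (LinearMap.ker f)) =
      Module.finrank (ZMod 2) (V2 k) - Module.finrank (ZMod 2) (LinearMap.ker f) :=
    LinearMap.BilinForm.finrank_orthogonal (by exact sympBilin_nondegenerate) (LinearMap.ker f)
  have h4 : Module.finrank (ZMod 2) (LinearMap.ker f) ≤
      Module.finrank (ZMod 2) (LinearMap.BilinForm.orthogonal B (LinearMap.ker f)) :=
    Submodule.finrank_mono hiso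
  omega

namespace IsQ

variable {q : V2 k → ZMod 2} (hq : IsQ q)

include hq

theorem exQ2 (hk : 3 ≤ k) {a b : V2 k} (ha : a ≠ 0) (hb : b ≠ 0) (hab : a ≠ b) (α β ε : ZMod 2) :
    ∃ v, bf v a = α ∧ bf v b = β ∧ q v = ε := by
  obtain ⟨v, hv1, hv2⟩ := exists_bf_pair ha hb hab α β
  obtain ⟨u, u', h1, h3, h4, h5, h6⟩ := exists_perp_pair hk a b
  by_contra hcon
  push Not at hcon
  have key : ∀ w, bf w a = 0 → bf w b = 0 → q (v + w) = 1 + ε := by
    intro w hw1 hw2
    have h7 := hcon (v + w) (by rw [bf_add_left, hv1, hw1, add_zero]) (by rw [bf_add_left, hv2, hw2, add_zero])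
    have h8 : ∀ x ε : ZMod 2, x ≠ ε → x = 1 + ε := by decide
    exact h8 _ _ h7
  have e0 := key 0 (bf_zero_left _) (bf_zero_left _)
  have e1 := key u h1 h3
  have e2 := key u' h4 h5
  have e3 := key (u + u') (by rw [bf_add_left, h1, h4, add_zero]) (by rw [bf_add_left, h3, h5, add_zero])
  rw [add_zero] at e0
  rw [hq.add v u] at e1
  rw [hq.add v u'] at e2
  rw [hq.add v, hq.add u u', bf_add_right, h6] at e3
  have h9 : ∀ x y z s t ε : ZMod 2, x = 1 + ε → x + y + s = 1 + ε → x + z + t = 1 + ε →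
      x + (y + z + 1) + (s + t) = 1 + ε → False := by decide +kernel
  exact h9 _ _ _ _ _ _ e0 e1 e2 e3

theorem exQ1 (hk : 3 ≤ k) {a : V2 k} (ha : a ≠ 0) (α ε : ZMod 2) : ∃ v, bf v a = α ∧ q v = ε := by
  obtain ⟨w, hw⟩ := exists_bf_one ha
  have hw0 : w ≠ 0 := by rintro rfl; rw [bf_zero_left] at hw; exact z2_ne hw.symm
  have hwa : a ≠ w := by rintro rfl; rw [bf_self] at hw; exact z2_ne hw.symm
  obtain ⟨v, h1, -, h3⟩ := hq.exQ2 hk ha hw0 hwa α 0 ε
  exact ⟨v, h1, h3⟩

end IsQ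

end Cfsg.Agent.H888.C6
end

-- part: H888/C6/QFGen
section
/-!
# The group generated by products of two transvections (helper888)

`Wq q` : the subgroup of `Sp_{2k}(2)` generated by the products of two transvections with centres `a`, `q a = 1`.
* `IsQ.Wq_perfect`, `IsQ.Wq_trans`, `IsQ.Wq_q`;
* `IsQ.two_card_one`, `IsQ.two_card_zero` : Gauss sum bounds.
-/

set_option autoImplicit false
set_option linter.unusedSectionVars false

namespace Cfsg.Agent.H888.C6

open Cfsg Cfsg.Agent.ClassicalGeometry.SympBasic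
open scoped commutatorElement

variable {k : ℕ}

/-- the symplectic group -/
abbrev Sp2 (k : ℕ) := Matrix.symplecticGroup (Fin k) (ZMod 2)

/-- the transvection with centre `a` -/
def tv (a : V2 k) : Sp2 k := transv a 1

/-- the action -/
def ac (A : Sp2 k) (x : V2 k) : V2 k := (A : Matrix (Fin k ⊕ Fin k) (Fin k ⊕ Fin k) (ZMod 2)).mulVec x

theorem ac_mul (A B : Sp2 k) (x : V2 k) : ac (A * B) x = ac A (ac B x) := coe_mul_mulVec A B x
theorem ac_one (x : V2 k) : ac 1 x = x := Matrix.one_mulVec x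
theorem ac_add (A : Sp2 k) (x y : V2 k) : ac A (x + y) = ac A x + ac A y := Matrix.mulVec_add _ _ _
theorem ac_bf (A : Sp2 k) (x y : V2 k) : bf (ac A x) (ac A y) = bf x y := sympForm_mulVec A.2 x y

theorem ac_ext {A B : Sp2 k} (h : ∀ x, ac A x = ac B x) : A = B := by
  apply Subtype.ext
  exact Matrix.mulVec_injective (funext h)

theorem ac_tv (a x : V2 k) : ac (tv a) x = x + bf x a • a := by
  change (sympTransvection k a 1).mulVec x = _
  rw [sympTransvection_mulVec, one_mul]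

theorem ac_tv_zero {a x : V2 k} (h : bf x a = 0) : ac (tv a) x = x := by
  rw [ac_tv, h, zero_smul, add_zero]

theorem ac_tv_one {a x : V2 k} (h : bf x a = 1) : ac (tv a) x = x + a := by
  rw [ac_tv, h, one_smul]

theorem tv_sq (a : V2 k) : tv a * tv a = 1 := by
  apply ac_ext
  intro x
  rw [ac_mul, ac_one]
  rcases z2 (bf x a) with h | h
  · rw [ac_tv_zero h, ac_tv_zero h]
  · rw [ac_tv_one h, ac_tv_one (by rw [bf_add_left, bf_self, add_zero, h]), add_assoc, v2_two, add_zero]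

theorem tv_inv (a : V2 k) : (tv a)⁻¹ = tv a := inv_eq_of_mul_eq_one_left (tv_sq a)

theorem tv_conj (A : Sp2 k) (a : V2 k) : A * tv a = tv (ac A a) * A := by
  apply ac_ext
  intro x
  rw [ac_mul, ac_mul, ac_tv, ac_tv, ac_add, ac_bf]
  rcases z2 (bf x a) with h | h
  · rw [h, zero_smul, zero_smul, show ac A 0 = 0 from Matrix.mulVec_zero _]
  · rw [h, one_smul, one_smul]

theorem tv_comm {a b : V2 k} (h : bf a b = 0) : tv a * tv b = tv b * tv a := by
  rw [tv_conj, ac_tv_zero (by rw [bf_comm]; exact h)]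

theorem tv_braid {a b : V2 k} (h : bf a b = 1) : tv a * tv b * tv a = tv b * tv a * tv b := by
  have h1 : tv a * tv b * tv a = tv (a + b) := by
    rw [tv_conj (tv a) b, ac_tv_one (by rw [bf_comm]; exact h), mul_assoc, tv_sq, mul_one, add_comm]
  have h3 : tv b * tv a * tv b = tv (a + b) := by
    rw [tv_conj (tv b) a, ac_tv_one h, mul_assoc, tv_sq, mul_one]
  rw [h1, h3]

theorem tv_cube {a b : V2 k} (h : bf a b = 1) : tv b * tv a * (tv b * tv a) = tv a * tv b := by
  calc tv b * tv a * (tv b * tv a) = tv b * (tv a * tv b * tv a) := by group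
    _ = tv b * (tv b * tv a * tv b) := by rw [tv_braid h]
    _ = (tv b * tv b) * (tv a * tv b) := by group
    _ = tv a * tv b := by rw [tv_sq, one_mul]

/-- The generators. -/
def gens (q : V2 k → ZMod 2) : Set (Sp2 k) := {A | ∃ a b, q a = 1 ∧ q b = 1 ∧ A = tv a * tv b}

/-- The group. -/
def Wq (q : V2 k → ZMod 2) : Subgroup (Sp2 k) := Subgroup.closure (gens q)

theorem mem_Wq {q : V2 k → ZMod 2} {a b : V2 k} (ha : q a = 1) (hb : q b = 1) : tv a * tv b ∈ Wq q :=
  Subgroup.subset_closure ⟨a, b, ha, hb, rfl⟩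

namespace IsQ

variable {q : V2 k → ZMod 2} (hq : IsQ q)

include hq

theorem ne_zero {a : V2 k} (h : q a = 1) : a ≠ 0 := by
  rintro rfl
  rw [hq.zero] at h
  exact z2_ne h.symm

theorem q_tv {a : V2 k} (h : q a = 1) (x : V2 k) : q (ac (tv a) x) = q x := by
  rcases z2 (bf x a) with h1 | h1
  · rw [ac_tv_zero h1]
  · rw [ac_tv_one h1, hq.add, h, h1, add_assoc, z2_two, add_zero]

/-- a generator with `bf a b = 1` is a commutator -/
theorem gen_commutator (hk : 3 ≤ k) {a b : V2 k} (ha : q a = 1) (hb : q b = 1) (hab : bf a b = 1) :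
    ∃ c, q c = 1 ∧ tv a * tv b = ⁅tv a * tv c, tv a * tv b⁆ := by
  have hne : a ≠ b := by rintro rfl; rw [bf_self] at hab; exact z2_ne hab.symm
  obtain ⟨c, h1, h3, h4⟩ := hq.exQ2 hk (hq.ne_zero ha) (hq.ne_zero hb) hne 0 0 1
  refine ⟨c, h4, ?_⟩
  have hca : tv c * tv a = tv a * tv c := tv_comm h1
  have hcb : tv c * tv b = tv b * tv c := tv_comm h3
  rw [commutatorElement_def, mul_inv_rev, mul_inv_rev, tv_inv, tv_inv, tv_inv]
  symm
  calc tv a * tv c * (tv a * tv b) * (tv c * tv a) * (tv b * tv a)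
      = tv a * (tv c * tv a) * tv b * tv c * tv a * (tv b * tv a) := by group
    _ = tv a * (tv a * tv c) * tv b * tv c * tv a * (tv b * tv a) := by rw [hca]
    _ = (tv a * tv a) * (tv c * tv b) * tv c * tv a * (tv b * tv a) := by group
    _ = (tv a * tv a) * (tv b * tv c) * tv c * tv a * (tv b * tv a) := by rw [hcb]
    _ = (tv a * tv a) * tv b * (tv c * tv c) * tv a * (tv b * tv a) := by group
    _ = tv b * tv a * (tv b * tv a) := by rw [tv_sq, tv_sq, one_mul, mul_one]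
    _ = tv a * tv b := tv_cube hab

/-- every generator is a product of generators with `bf a b = 1` -/
theorem gen_split (hk : 3 ≤ k) {a b : V2 k} (ha : q a = 1) (hb : q b = 1) :
    a = b ∨ bf a b = 1 ∨ ∃ c, q c = 1 ∧ bf a c = 1 ∧ bf c b = 1 ∧ tv a * tv b = (tv a * tv c) * (tv c * tv b) := by
  by_cases hab : a = b
  · exact Or.inl hab
  right
  rcases z2 (bf a b) with h | h
  · right
    obtain ⟨c, h1, h3, h4⟩ := hq.exQ2 hk (hq.ne_zero ha) (hq.ne_zero hb) hab 1 1 1
    refine ⟨c, h4, by rw [bf_comm]; exact h1, h3, ?_⟩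
    calc tv a * tv b = tv a * (tv c * tv c) * tv b := by rw [tv_sq, mul_one]
      _ = _ := by group
  · exact Or.inl h

theorem Wq_perfect (hk : 3 ≤ k) : ⁅Wq q, Wq q⁆ = Wq q := by
  apply le_antisymm (Subgroup.commutator_le_self _)
  unfold Wq
  rw [Subgroup.closure_le]
  have key : ∀ a b, q a = 1 → q b = 1 → bf a b = 1 → tv a * tv b ∈ ⁅Subgroup.closure (gens q), Subgroup.closure (gens q)⁆ := by
    intro a b ha hb hab
    obtain ⟨c, hc, h⟩ := hq.gen_commutator hk ha hb hab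
    rw [h]
    exact Subgroup.commutator_mem_commutator (mem_Wq ha hc) (mem_Wq ha hb)
  rintro _ ⟨a, b, ha, hb, rfl⟩
  rcases hq.gen_split hk ha hb with h | h | ⟨c, hc, h1, h3, h4⟩
  · rw [h, tv_sq]; exact Subgroup.one_mem _
  · exact key a b ha hb h
  · rw [h4]
    exact Subgroup.mul_mem _ (key a c ha hc h1) (key c b hc hb h3)

/-- transitivity -/
theorem Wq_trans (hk : 3 ≤ k) {a b : V2 k} (ha : a ≠ 0) (hb : b ≠ 0) (hab : q a = q b) :
    ∃ A ∈ Wq q, ac A a = b := by
  have key : ∀ a b : V2 k, a ≠ 0 → q a = q b → bf a b = 1 → ∃ A ∈ Wq q, ac A a = b := by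
    intro a b ha hab h
    obtain ⟨d, hd1, hd2⟩ := hq.exQ1 hk ha 0 1
    have hs : q (a + b) = 1 := by rw [hq.add, hab, h, z2_two, zero_add]
    refine ⟨tv (a + b) * tv d, mem_Wq hs hd2, ?_⟩
    have e1 : ac (tv d) a = a := ac_tv_zero (by rw [bf_comm]; exact hd1)
    have e2 : bf a (a + b) = 1 := by rw [bf_add_right, bf_self, h, zero_add]
    rw [ac_mul, e1, ac_tv_one e2, ← add_assoc, v2_two, zero_add]
  by_cases hne : a = b
  · exact ⟨1, Subgroup.one_mem _, by rw [ac_one, hne]⟩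
  rcases z2 (bf a b) with h | h
  · obtain ⟨c, h1, h3, h4⟩ := hq.exQ2 hk ha hb hne 1 1 (q a)
    have hc : c ≠ 0 := by rintro rfl; rw [bf_zero_left] at h1; exact z2_ne h1.symm
    obtain ⟨A, hA, hA'⟩ := key a c ha h4.symm (by rw [bf_comm]; exact h1)
    obtain ⟨B, hB, hB'⟩ := key c b hc (by rw [h4, hab]) h3
    exact ⟨B * A, Subgroup.mul_mem _ hB hA, by rw [ac_mul, hA', hB']⟩
  · exact key a b ha hab h

end IsQ

/-! ### Gauss sums -/

/-- the sign -/
def sg (x : ZMod 2) : ℤ := if x = 0 then 1 else -1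

theorem sg_add : ∀ x y : ZMod 2, sg (x + y) = sg x * sg y := by decide
theorem sg_sq : ∀ x : ZMod 2, sg x * sg x = 1 := by decide
theorem sg_succ : ∀ x : ZMod 2, sg (x + 1) = - sg x := by decide

theorem sum_sg_bf {u : V2 k} (hu : u ≠ 0) : ∑ v : V2 k, sg (bf v u) = 0 := by
  obtain ⟨w, hw⟩ := exists_bf_one hu
  have h1 : ∑ v : V2 k, sg (bf (v + w) u) = ∑ v : V2 k, sg (bf v u) :=
    Fintype.sum_equiv (Equiv.addRight w) _ _ (fun v => rfl)
  have h3 : ∑ v : V2 k, sg (bf (v + w) u) = - ∑ v : V2 k, sg (bf v u) := by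
    rw [← Finset.sum_neg_distrib]
    refine Finset.sum_congr rfl fun v _ => ?_
    rw [bf_add_left, hw, sg_succ]
  rw [h3] at h1
  linarith

theorem card_v2 : Fintype.card (V2 k) = 2 ^ (2 * k) := by
  rw [Fintype.card_fun, ZMod.card, Fintype.card_sum, Fintype.card_fin]; congr 1; ring

namespace IsQ

variable {q : V2 k → ZMod 2} (hq : IsQ q)

include hq

theorem gauss : (∑ v : V2 k, sg (q v)) * (∑ v : V2 k, sg (q v)) = 2 ^ (2 * k) := by
  have h1 : (∑ v : V2 k, sg (q v)) * (∑ v : V2 k, sg (q v)) = ∑ v : V2 k, ∑ w : V2 k, sg (q v) * sg (q (v + w)) := by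
    rw [Finset.sum_mul]
    refine Finset.sum_congr rfl fun v _ => ?_
    rw [Finset.mul_sum]
    exact (Fintype.sum_equiv (Equiv.addLeft v) _ _ (fun w => rfl)).symm
  rw [h1]
  have h3 : ∀ v w : V2 k, sg (q v) * sg (q (v + w)) = sg (q w) * sg (bf v w) := by
    intro v w
    rw [hq.add, sg_add, sg_add, ← mul_assoc, ← mul_assoc, sg_sq, one_mul]
  simp only [h3]
  rw [Finset.sum_comm, Finset.sum_eq_single (0 : V2 k)]
  · rw [hq.zero]
    have h4 : ∀ v : V2 k, sg 0 * sg (bf v 0) = 1 := fun v => by rw [bf_zero_right]; rfl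
    simp only [h4]
    rw [Finset.sum_const, Finset.card_univ, card_v2]
    simp
  · intro w _ hw
    rw [← Finset.mul_sum, sum_sg_bf hw, mul_zero]
  · intro h; exact absurd (Finset.mem_univ _) h

theorem gauss_abs : (∑ v : V2 k, sg (q v)) = 2 ^ k ∨ (∑ v : V2 k, sg (q v)) = - 2 ^ k := by
  have h := hq.gauss
  rw [show (2 : ℤ) ^ (2 * k) = 2 ^ k * 2 ^ k by rw [two_mul, pow_add]] at h
  exact mul_self_eq_mul_self_iff.1 h

theorem count : (Fintype.card {v : V2 k // q v = 0} : ℤ) + Fintype.card {v : V2 k // q v = 1} = 2 ^ (2 * k) ∧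
    (Fintype.card {v : V2 k // q v = 0} : ℤ) - Fintype.card {v : V2 k // q v = 1} = ∑ v : V2 k, sg (q v) := by
  classical
  have h0 : (Fintype.card {v : V2 k // q v = 0} : ℤ) = ∑ v : V2 k, if q v = 0 then 1 else 0 := by
    rw [Fintype.card_subtype]
    simp
  have h1 : (Fintype.card {v : V2 k // q v = 1} : ℤ) = ∑ v : V2 k, if q v = 1 then 1 else 0 := by
    rw [Fintype.card_subtype]
    simp
  constructor
  · rw [h0, h1, ← Finset.sum_add_distrib]
    have h3 : ∀ v : V2 k, ((if q v = 0 then 1 else 0) + (if q v = 1 then 1 else 0) : ℤ) = 1 := by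
      intro v
      rcases z2 (q v) with h | h <;> rw [h] <;> decide
    simp only [h3]
    rw [Finset.sum_const, Finset.card_univ, card_v2]
    simp
  · rw [h0, h1, ← Finset.sum_sub_distrib]
    refine Finset.sum_congr rfl fun v _ => ?_
    rcases z2 (q v) with h | h <;> rw [h] <;> decide

theorem two_card_one : 2 ^ (2 * k) ≤ 2 * Fintype.card {v : V2 k // q v = 1} + 2 ^ k := by
  have h1 := hq.count.1
  have h3 := hq.count.2
  rcases hq.gauss_abs with h | h <;> rw [h] at h3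
  · have : (2 : ℤ) ^ (2 * k) ≤ 2 * Fintype.card {v : V2 k // q v = 1} + 2 ^ k := by linarith
    exact_mod_cast this
  · have hpos : (0 : ℤ) < 2 ^ k := by positivity
    have : (2 : ℤ) ^ (2 * k) ≤ 2 * Fintype.card {v : V2 k // q v = 1} + 2 ^ k := by linarith
    exact_mod_cast this

theorem two_card_zero : 2 ^ (2 * k) ≤ 2 * Fintype.card {v : V2 k // q v = 0} + 2 ^ k := by
  have h1 := hq.count.1
  have h3 := hq.count.2
  rcases hq.gauss_abs with h | h <;> rw [h] at h3
  · have hpos : (0 : ℤ) < 2 ^ k := by positivity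
    have : (2 : ℤ) ^ (2 * k) ≤ 2 * Fintype.card {v : V2 k // q v = 0} + 2 ^ k := by linarith
    exact_mod_cast this
  · have : (2 : ℤ) ^ (2 * k) ≤ 2 * Fintype.card {v : V2 k // q v = 0} + 2 ^ k := by linarith
    exact_mod_cast this

end IsQ

end Cfsg.Agent.H888.C6
end

-- part: H888/C6/PStr
section
/-!
# The normaliser of an extraspecial 2-group, centre of order 2 (helper888)

`TC C q` : the squares of the elements of `R` are given by the quadratic form `q`.
* `exists_TC` : existence of coordinates and `q`;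
* `TC.tau` : `1 + a`, `a ^ 2 = -1`, induces the transvection;
* `TC.exists_Y` : the perfect part of the normaliser of `R` in `X`.
-/

set_option autoImplicit false

namespace Cfsg.Agent.H888.C6

open Cfsg Cfsg.Geo Matrix Cfsg.Agent.ClassicalGeometry.SympBasic Cfsg.Agent.H920
open scoped commutatorElement

variable {ι : Type} [Fintype ι] [DecidableEq ι] {F : Type*} [Field F] {R : Subgroup (GL ι F)} {k : ℕ}

/-- the sign in `F` -/
def sF (F : Type*) [Field F] (a : ZMod 2) : F := if a = 0 then 1 else -1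

theorem sF_zero : sF F 0 = 1 := rfl
theorem sF_one : sF F 1 = -1 := rfl

theorem sF_mul (a b : ZMod 2) : sF F (a + b) = sF F a * sF F b := by
  rcases z2 a with rfl | rfl <;> rcases z2 b with rfl | rfl
  · rw [add_zero, sF_zero, mul_one]
  · rw [zero_add, sF_zero, one_mul]
  · rw [add_zero, sF_zero, mul_one]
  · rw [z2_two, sF_zero, sF_one]; ring

theorem sF_sq (a : ZMod 2) : sF F a * sF F a = 1 := by rw [← sF_mul, z2_two, sF_zero]

theorem neg_one_ne (h2 : (2 : F) ≠ 0) : (-1 : F) ≠ 1 := by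
  intro h
  apply h2
  calc (2 : F) = 1 + 1 := by norm_num
    _ = 1 + -1 := by rw [h]
    _ = 0 := by ring

theorem sF_inj (h2 : (2 : F) ≠ 0) {a b : ZMod 2} (h : sF F a = sF F b) : a = b := by
  rcases z2 a with rfl | rfl <;> rcases z2 b with rfl | rfl
  · rfl
  · exact absurd h.symm (neg_one_ne h2)
  · exact absurd h (neg_one_ne h2)
  · rfl

theorem chi_eq (C : Coord R 2 k) (a : ZMod 2) : C.χ a = sF F a := by
  have h0 : C.χ 0 = 1 := AddChar.map_zero_eq_one _
  rcases z2 a with rfl | rfl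
  · rw [h0, sF_zero]
  · have h1 : C.χ 1 * C.χ 1 = 1 := by
      rw [← AddChar.map_add_eq_mul, z2_two, h0]
    rcases mul_self_eq_one_iff.1 h1 with h | h
    · exact absurd (C.inj (h.trans h0.symm)) z2_ne
    · rw [h, sF_one]

theorem comm_sF (C : Coord R 2 k) (x y : R) :
    ((x : GL ι F) : Matrix ι ι F) * ((y : GL ι F) : Matrix ι ι F) =
      sF F (bf (C.φ x) (C.φ y)) • (((y : GL ι F) : Matrix ι ι F) * ((x : GL ι F) : Matrix ι ι F)) := by
  rw [C.comm, chi_eq]

/-- Squares are given by `q`. -/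
structure TC (C : Coord R 2 k) (q : V2 k → ZMod 2) : Prop where
  two : (2 : F) ≠ 0
  sqs : ∀ x : R, ((x : GL ι F) : Matrix ι ι F) * ((x : GL ι F) : Matrix ι ι F) = sF F (q (C.φ x)) • 1
  ker : ∀ x : R, C.φ x = 0 → ((x : GL ι F) : Matrix ι ι F) = 1 ∨ ((x : GL ι F) : Matrix ι ι F) = -1

namespace TC

variable {C : Coord R 2 k} {q : V2 k → ZMod 2} (T : TC C q)

include T

theorem isQ [Nonempty ι] : IsQ q := by
  refine ⟨fun v w => ?_⟩
  obtain ⟨x, rfl⟩ := C.surj v
  obtain ⟨y, rfl⟩ := C.surj w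
  have h1 := T.sqs (x * y)
  rw [C.map_mul] at h1
  have h3 : (((x * y : R) : GL ι F) : Matrix ι ι F) * (((x * y : R) : GL ι F) : Matrix ι ι F) =
      (sF F (q (C.φ x)) * sF F (q (C.φ y)) * sF F (bf (C.φ x) (C.φ y))) • (1 : Matrix ι ι F) := by
    rw [Subgroup.coe_mul, Units.val_mul]
    calc ((x : GL ι F) : Matrix ι ι F) * ((y : GL ι F) : Matrix ι ι F) *
          (((x : GL ι F) : Matrix ι ι F) * ((y : GL ι F) : Matrix ι ι F))
        = ((x : GL ι F) : Matrix ι ι F) * (((y : GL ι F) : Matrix ι ι F) * ((x : GL ι F) : Matrix ι ι F)) *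
          ((y : GL ι F) : Matrix ι ι F) := by simp only [Matrix.mul_assoc]
      _ = ((x : GL ι F) : Matrix ι ι F) * (sF F (bf (C.φ y) (C.φ x)) • (((x : GL ι F) : Matrix ι ι F) *
            ((y : GL ι F) : Matrix ι ι F))) * ((y : GL ι F) : Matrix ι ι F) := by rw [comm_sF C y x]
      _ = sF F (bf (C.φ y) (C.φ x)) • ((((x : GL ι F) : Matrix ι ι F) * ((x : GL ι F) : Matrix ι ι F)) *
            (((y : GL ι F) : Matrix ι ι F) * ((y : GL ι F) : Matrix ι ι F))) := by
          rw [Matrix.mul_smul, Matrix.smul_mul]; simp only [Matrix.mul_assoc]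
      _ = _ := by
          rw [T.sqs, T.sqs, Matrix.smul_mul, Matrix.mul_smul, Matrix.one_mul, smul_smul, smul_smul, bf_comm]
          congr 1; ring
  rw [h3] at h1
  have h4 : (sF F (q (C.φ x)) * sF F (q (C.φ y)) * sF F (bf (C.φ x) (C.φ y)) - sF F (q (C.φ x + C.φ y))) •
      (1 : Matrix ι ι F) = 0 := by rw [sub_smul, h1, sub_self]
  have h5 := sub_eq_zero.1 ((smul_eq_zero.1 h4).resolve_right one_ne_zero)
  rw [← sF_mul, ← sF_mul] at h5
  exact (sF_inj T.two h5).symm

/-- the unit `1 + a` -/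
theorem exists_tau {a : R} (ha : q (C.φ a) = 1) :
    ∃ g : GL ι F, (g : Matrix ι ι F) = 1 + ((a : GL ι F) : Matrix ι ι F) ∧
      ((g⁻¹ : GL ι F) : Matrix ι ι F) = (2 : F)⁻¹ • (1 - ((a : GL ι F) : Matrix ι ι F)) := by
  have hsq : ((a : GL ι F) : Matrix ι ι F) * ((a : GL ι F) : Matrix ι ι F) = -1 := by
    rw [T.sqs, ha, sF_one, neg_smul, one_smul]
  have h1 : (1 + ((a : GL ι F) : Matrix ι ι F)) * ((2 : F)⁻¹ • (1 - ((a : GL ι F) : Matrix ι ι F))) = 1 := by
    rw [Matrix.mul_smul, Matrix.mul_sub, Matrix.mul_one, Matrix.add_mul, Matrix.one_mul, hsq]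
    rw [show (1 : Matrix ι ι F) + ((a : GL ι F) : Matrix ι ι F) - (((a : GL ι F) : Matrix ι ι F) + -1) = (2 : F) • 1 by
      rw [two_smul]; abel]
    rw [smul_smul, inv_mul_cancel₀ T.two, one_smul]
  have h3 : ((2 : F)⁻¹ • (1 - ((a : GL ι F) : Matrix ι ι F))) * (1 + ((a : GL ι F) : Matrix ι ι F)) = 1 :=
    mul_eq_one_comm.1 h1
  exact ⟨⟨_, _, h1, h3⟩, rfl, rfl⟩

/-- `1 + a` induces the transvection. -/
theorem ind_tau {a : R} (ha : q (C.φ a) = 1) {g : GL ι F}
    (hg : (g : Matrix ι ι F) = 1 + ((a : GL ι F) : Matrix ι ι F)) :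
    C.Ind g ((tv (C.φ a) : Sp2 k) : Matrix (Fin k ⊕ Fin k) (Fin k ⊕ Fin k) (ZMod 2)) := by
  intro y
  have hac : ∀ x, ((tv (C.φ a) : Sp2 k) : Matrix (Fin k ⊕ Fin k) (Fin k ⊕ Fin k) (ZMod 2)) *ᵥ x =
      x + bf x (C.φ a) • C.φ a := ac_tv (C.φ a)
  rcases z2 (bf (C.φ y) (C.φ a)) with h | h
  · refine ⟨y, ?_, by rw [hac, h, zero_smul, add_zero]⟩
    have hc := comm_sF C y a
    rw [h, sF_zero, one_smul] at hc
    rw [mul_inv_eq_iff_eq_mul]
    apply Units.ext
    rw [Units.val_mul, Units.val_mul, hg, Matrix.add_mul, Matrix.mul_add, Matrix.one_mul, Matrix.mul_one, hc]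
  · refine ⟨a * y, ?_, by rw [hac, h, one_smul, C.map_mul, add_comm]⟩
    have hc := comm_sF C y a
    rw [h, sF_one, neg_smul, one_smul] at hc
    have hsq : ((a : GL ι F) : Matrix ι ι F) * ((a : GL ι F) : Matrix ι ι F) = -1 := by
      rw [T.sqs, ha, sF_one, neg_smul, one_smul]
    rw [mul_inv_eq_iff_eq_mul]
    apply Units.ext
    rw [Units.val_mul, Units.val_mul, Subgroup.coe_mul, Units.val_mul, hg, Matrix.add_mul, Matrix.mul_add,
      Matrix.one_mul, Matrix.mul_one, Matrix.mul_assoc, hc, Matrix.mul_neg, ← Matrix.mul_assoc, hsq]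
    rw [Matrix.neg_mul, Matrix.one_mul, neg_neg, add_comm]

/-- the normalised product of two transvection elements -/
theorem exists_pair {a b : R} (ha : q (C.φ a) = 1) (hb : q (C.φ b) = 1) :
    ∃ g : GL ι F, (g : Matrix ι ι F) = (2 : F)⁻¹ • ((1 + ((a : GL ι F) : Matrix ι ι F)) * (1 + ((b : GL ι F) : Matrix ι ι F))) ∧
      C.Ind g ((tv (C.φ a) * tv (C.φ b) : Sp2 k) : Matrix (Fin k ⊕ Fin k) (Fin k ⊕ Fin k) (ZMod 2)) := by
  obtain ⟨s, hs, -⟩ := T.exists_tau ha
  obtain ⟨t, ht, -⟩ := T.exists_tau hb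
  have hi := (T.ind_tau ha hs).mul (T.ind_tau hb ht)
  -- the scalar 2⁻¹
  let z : GL ι F := Units.map (Matrix.scalar ι : F →+* Matrix ι ι F).toMonoidHom (Units.mk0 (2 : F)⁻¹ (inv_ne_zero T.two))
  have hz : (z : Matrix ι ι F) = (2 : F)⁻¹ • 1 := by
    simp only [z, Matrix.smul_one_eq_diagonal, _root_.RingHom.toMonoidHom_eq_coe, _root_.Units.coe_map, _root_.Units.val_mk0, _root_.MonoidHom.coe_coe, _root_.Matrix.scalar_apply]
  have hzs : z ∈ scalars ι F := ⟨_, rfl⟩
  refine ⟨z * (s * t), ?_, ?_⟩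
  · rw [Units.val_mul, Units.val_mul, hz, hs, ht, Matrix.smul_mul, Matrix.one_mul]
  · intro y
    obtain ⟨y', h1, h3⟩ := hi y
    refine ⟨y', ?_, h3⟩
    rw [← h1]
    have hzc : ∀ g : GL ι F, z * g = g * z := fun g => scalars_comm hzs g
    calc z * (s * t) * y * (z * (s * t))⁻¹ = z * (s * t * y * (s * t)⁻¹) * z⁻¹ := by group
      _ = (s * t * y * (s * t)⁻¹) * z * z⁻¹ := by rw [hzc]
      _ = _ := by rw [mul_inv_cancel_right]

end TC

end Cfsg.Agent.H888.C6
end

-- part: H888/C6/PCore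
section
/-!
# The perfect part of the normaliser, centre of order 2 (helper888)

`YCore C q Y` : `Y` is perfect, normalises `R`, contains `R` and induces `Wq q`.
* `TC.exists_Y` : existence inside a group `X` containing `R` and the pairs.
* `YCore.le_of_normalised` : consequences (transitivity, irreducibility).
-/

set_option autoImplicit false

namespace Cfsg.Agent.H888.C6

open Cfsg Cfsg.Geo Matrix Cfsg.Agent.ClassicalGeometry.SympBasic Cfsg.Agent.H920
open scoped commutatorElement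

variable {ι : Type} [Fintype ι] [DecidableEq ι] {F : Type*} [Field F] {R : Subgroup (GL ι F)} {k : ℕ}

/-- matrices of elements of the symplectic group -/
abbrev sm (A : Sp2 k) : Matrix (Fin k ⊕ Fin k) (Fin k ⊕ Fin k) (ZMod 2) := (A : Matrix _ _ _)

/-- perfect, normalising `R`, inducing `Wq q` and containing `R`. -/
structure YCore (C : Coord R 2 k) (q : V2 k → ZMod 2) (Y : Subgroup (GL ι F)) : Prop where
  norm : Y ≤ subgroupNormalizer R
  perfect : ⁅Y, Y⁆ = Y
  ind : ∀ A ∈ Wq q, ∃ g ∈ Y, C.Ind g (sm A)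
  le : R ≤ Y

/-- The pairs. -/
def PairsIn (C : Coord R 2 k) (q : V2 k → ZMod 2) (X : Subgroup (GL ι F)) : Prop :=
  ∀ a b : R, q (C.φ a) = 1 → q (C.φ b) = 1 → ∀ g : GL ι F,
    (g : Matrix ι ι F) = (2 : F)⁻¹ • ((1 + ((a : GL ι F) : Matrix ι ι F)) * (1 + ((b : GL ι F) : Matrix ι ι F))) → g ∈ X

section

variable {C : Coord R 2 k} {q : V2 k → ZMod 2}

theorem TC.ind_all [Finite R] [Nonempty ι] (T : TC C q) {X : Subgroup (GL ι F)}
    (hX : PairsIn C q X) (A : Sp2 k) (hA : A ∈ Wq q) : ∃ g ∈ subgroupNormalizer R ⊓ X, C.Ind g (sm A) := by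
  induction hA using Subgroup.closure_induction with
  | mem A hA =>
    obtain ⟨v, w, hv, hw, rfl⟩ := hA
    obtain ⟨a, rfl⟩ := C.surj v
    obtain ⟨b, rfl⟩ := C.surj w
    obtain ⟨g, hg, hi⟩ := T.exists_pair hv hw
    exact ⟨g, ⟨hi.mem_normalizer, hX a b hv hw g hg⟩, hi⟩
  | one => exact ⟨1, Subgroup.one_mem _, Coord.Ind.one C⟩
  | mul A B _ _ hA hB =>
    obtain ⟨g₁, h₁, h₁'⟩ := hA
    obtain ⟨g₂, h₂, h₂'⟩ := hB
    exact ⟨g₁ * g₂, Subgroup.mul_mem _ h₁ h₂, h₁'.mul h₂'⟩
  | inv A _ hA =>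
    obtain ⟨g₁, h₁, h₁'⟩ := hA
    exact ⟨g₁⁻¹, Subgroup.inv_mem _ h₁, h₁'.invS⟩

theorem TC.ind_series [Finite R] [Nonempty ι] (T : TC C q) (hk : 3 ≤ k) {X : Subgroup (GL ι F)}
    (hX : PairsIn C q X) (n : ℕ) (A : Sp2 k) (hA : A ∈ Wq q) :
    ∃ g ∈ derivedSeries (subgroupNormalizer R ⊓ X : Subgroup (GL ι F)) n, C.Ind (g : GL ι F) (sm A) := by
  induction n generalizing A with
  | zero =>
    obtain ⟨g, hg, h⟩ := T.ind_all hX A hA
    exact ⟨⟨g, hg⟩, Subgroup.mem_top _, h⟩
  | succ n ih =>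
    rw [← T.isQ.Wq_perfect hk, Subgroup.commutator_def] at hA
    induction hA using Subgroup.closure_induction with
    | mem A hA =>
      obtain ⟨B₁, hB₁, B₂, hB₂, rfl⟩ := hA
      obtain ⟨g₁, h₁, h₁'⟩ := ih B₁ hB₁
      obtain ⟨g₂, h₂, h₂'⟩ := ih B₂ hB₂
      refine ⟨⁅g₁, g₂⁆, Subgroup.commutator_mem_commutator h₁ h₂, ?_⟩
      rw [commutatorElement_def, commutatorElement_def]
      exact ((h₁'.mul h₂').mul h₁'.invS).mul h₂'.invS
    | one => exact ⟨1, Subgroup.one_mem _, Coord.Ind.one C⟩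
    | mul A B _ _ hA hB =>
      obtain ⟨g₁, h₁, h₁'⟩ := hA
      obtain ⟨g₂, h₂, h₂'⟩ := hB
      exact ⟨g₁ * g₂, Subgroup.mul_mem _ h₁ h₂, h₁'.mul h₂'⟩
    | inv A _ hA =>
      obtain ⟨g₁, h₁, h₁'⟩ := hA
      exact ⟨g₁⁻¹, Subgroup.inv_mem _ h₁, h₁'.invS⟩

theorem φ_neg_eq (C : Coord R 2 k) (x : R) : C.φ x⁻¹ = C.φ x := by
  rw [C.φ_inv]
  exact neg_eq_of_add_eq_zero_left (v2_two _)

/-- **Existence of `Y`.** -/
theorem TC.exists_Y [Finite F] [Nonempty ι] (T : TC C q) (hk : 3 ≤ k) {X : Subgroup (GL ι F)} (hRX : R ≤ X)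
    (hX : PairsIn C q X) : ∃ Y : Subgroup (GL ι F), YCore C q Y ∧ Y ≤ X ∧
      ∀ g ∈ subgroupNormalizer R ⊓ X, ∀ y ∈ Y, g * y * g⁻¹ ∈ Y := by
  have hfin : Finite (GL ι F) := inferInstance
  have hq := T.isQ
  obtain ⟨N, hN, hperf', n, hn⟩ := exists_perfect_residual (subgroupNormalizer R ⊓ X : Subgroup (GL ι F))
  have hnorm : ∀ g ∈ subgroupNormalizer R ⊓ X, ∀ y ∈ N.map (subgroupNormalizer R ⊓ X).subtype,
      g * y * g⁻¹ ∈ N.map (subgroupNormalizer R ⊓ X).subtype := conj_mem_map inferInstance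
  have hind : ∀ A ∈ Wq q, ∃ g ∈ N.map (subgroupNormalizer R ⊓ X).subtype, C.Ind g (sm A) := by
    intro A hA
    obtain ⟨g, hg, hg'⟩ := T.ind_series hk hX n A hA
    rw [hn] at hg
    exact ⟨g, ⟨g, hg, rfl⟩, hg'⟩
  set Y := N.map (subgroupNormalizer R ⊓ X).subtype with hY
  have hYle : Y ≤ subgroupNormalizer R ⊓ X := by
    rintro _ ⟨x, -, rfl⟩; exact x.2
  have hRN : R ≤ subgroupNormalizer R ⊓ X := le_inf Subgroup.le_normalizer hRX
  -- commutators with elements of `R`
  have hcom : ∀ A ∈ Wq q, ∀ x : R, ∃ z : R, (z : GL ι F) ∈ Y ∧ C.φ z = ac A (C.φ x) + C.φ x := by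
    intro A hA x
    obtain ⟨g, hg, hi⟩ := hind A hA
    obtain ⟨x', h1, h3⟩ := hi x
    refine ⟨x' * x⁻¹, ?_, ?_⟩
    · rw [Subgroup.coe_mul, ← h1, Subgroup.coe_inv]
      have h4 := hnorm x (hRN x.2) _ (Subgroup.inv_mem _ hg)
      have h5 := Subgroup.mul_mem _ hg h4
      have h6 : g * ((x : GL ι F) * g⁻¹ * (x : GL ι F)⁻¹) = g * x * g⁻¹ * (x : GL ι F)⁻¹ := by group
      rwa [h6] at h5
    · rw [C.map_mul, φ_neg_eq, h3]; rfl
  -- all vectors occur
  let S : Set (V2 k) := {v | ∃ z : R, (z : GL ι F) ∈ Y ∧ C.φ z = v}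
  have hSadd : ∀ v ∈ S, ∀ w ∈ S, v + w ∈ S := by
    rintro v ⟨z, hz, rfl⟩ w ⟨z', hz', rfl⟩
    exact ⟨z * z', Subgroup.mul_mem _ hz hz', C.map_mul _ _⟩
  have hS1 : ∀ a, q a = 1 → a ∈ S := by
    intro a ha
    obtain ⟨b, hb1, hb2⟩ := hq.exQ1 hk (hq.ne_zero ha) 1 1
    have hab : a ≠ b := by rintro rfl; rw [bf_self] at hb1; exact z2_ne hb1.symm
    obtain ⟨v, hv1, hv2, -⟩ := hq.exQ2 hk (hq.ne_zero ha) (hq.ne_zero hb2) hab 1 0 0
    obtain ⟨x, rfl⟩ := C.surj v
    obtain ⟨z, hz, hz'⟩ := hcom (tv a * tv b) (mem_Wq ha hb2) x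
    refine ⟨z, hz, ?_⟩
    rw [hz', ac_mul, ac_tv_zero hv2, ac_tv_one hv1, add_comm (C.φ x) a, add_assoc, v2_two, add_zero]
  have hSall : ∀ v, v ∈ S := by
    intro v
    by_cases hv : v = 0
    · rw [hv]; exact ⟨1, Subgroup.one_mem _, C.φ_one⟩
    rcases z2 (q v) with h | h
    · obtain ⟨a, ha1, ha2⟩ := hq.exQ1 hk hv 0 1
      have h1 : q (v + a) = 1 := by rw [hq.add, h, ha2, bf_comm, ha1, zero_add, add_zero]
      have := hSadd _ (hS1 _ h1) _ (hS1 a ha2)
      rwa [add_assoc, v2_two, add_zero] at this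
    · exact hS1 v h
  have hk1 : 1 ≤ k := by omega
  -- `-1`
  have hneg : ∃ z : R, (z : GL ι F) ∈ Y ∧ ((z : GL ι F) : Matrix ι ι F) = -1 := by
    obtain ⟨z, hz⟩ := C.exists_scalar hk1 1
    rw [chi_eq, sF_one, neg_smul, one_smul] at hz
    obtain ⟨w, hw⟩ : ∃ v w : V2 k, bf v w = 1 := by
      obtain ⟨v, hv⟩ : ∃ v : V2 k, v ≠ 0 :=
        ⟨Pi.single (Sum.inl ⟨0, hk1⟩) 1, by
          intro h; have := congrFun h (Sum.inl ⟨0, hk1⟩); rw [Pi.single_eq_same] at this; exact z2_ne this⟩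
      obtain ⟨w, hw⟩ := exists_bf_one hv
      exact ⟨w, v, hw⟩
    obtain ⟨v, hv⟩ := hw
    obtain ⟨x, hx, hx'⟩ := hSall w
    obtain ⟨y, hy, hy'⟩ := hSall v
    refine ⟨z, ?_, hz⟩
    have h1 := comm_sF C x y
    rw [hx', hy', hv, sF_one] at h1
    have h3 : (z : GL ι F) = x * y * (x : GL ι F)⁻¹ * (y : GL ι F)⁻¹ := by
      rw [eq_mul_inv_iff_mul_eq, eq_mul_inv_iff_mul_eq]
      apply Units.ext
      rw [Units.val_mul, Units.val_mul, Units.val_mul, hz, h1, Matrix.neg_mul, Matrix.one_mul, neg_smul, one_smul,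
        Matrix.neg_mul]
    rw [h3]
    exact Subgroup.mul_mem _ (Subgroup.mul_mem _ (Subgroup.mul_mem _ hx hy) (Subgroup.inv_mem _ hx)) (Subgroup.inv_mem _ hy)
  have hRY : R ≤ Y := by
    intro x hx
    obtain ⟨z, hz, hz'⟩ := hSall (C.φ ⟨x, hx⟩)
    have h1 : C.φ (⟨x, hx⟩ * z⁻¹) = 0 := by rw [C.map_mul, φ_neg_eq, hz', v2_two]
    obtain ⟨w, hw, hw'⟩ := hneg
    rcases T.ker _ h1 with h | h
    · have h3 : x = z := by
        have h4 : ((⟨x, hx⟩ * z⁻¹ : R) : GL ι F) = 1 := Units.ext h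
        rw [Subgroup.coe_mul, Subgroup.coe_inv, mul_inv_eq_one] at h4
        exact h4
      rw [h3]; exact hz
    · have h3 : x = w * z := by
        have h4 : ((⟨x, hx⟩ * z⁻¹ : R) : GL ι F) = w := Units.ext (by rw [h, hw'])
        rw [Subgroup.coe_mul, Subgroup.coe_inv, mul_inv_eq_iff_eq_mul] at h4
        exact h4
      rw [h3]; exact Subgroup.mul_mem _ hw hz
  refine ⟨Y, ⟨fun y hy => (hYle hy).1, ?_, hind, hRY⟩, fun y hy => (hYle hy).2, hnorm⟩
  rw [hY, ← Subgroup.map_commutator, hperf']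

end

namespace YCore

variable {C : Coord R 2 k} {q : V2 k → ZMod 2} {Y : Subgroup (GL ι F)} (hY : YCore C q Y)

include hY

/-- Transitivity on vectors with the same value. -/
theorem trans (hq : IsQ q) (hk : 3 ≤ k) {x x' : R} (hx : C.φ x ≠ 0) (hx' : C.φ x' ≠ 0)
    (h : q (C.φ x) = q (C.φ x')) : ∃ g ∈ Y, ∃ y : R, g * x * g⁻¹ = y ∧ C.φ y = C.φ x' := by
  obtain ⟨A, hA, hA'⟩ := hq.Wq_trans hk hx hx' h
  obtain ⟨g, hg, hi⟩ := hY.ind A hA
  obtain ⟨y, h1, h3⟩ := hi x
  exact ⟨g, hg, y, h1, by rw [h3]; exact hA'⟩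

/-- Invariant sets of vectors closed under addition. -/
theorem irr (hq : IsQ q) (hk : 3 ≤ k) (S : Set (V2 k)) (hadd : ∀ v ∈ S, ∀ w ∈ S, v + w ∈ S)
    (hinv : ∀ A ∈ Wq q, ∀ v ∈ S, ac A v ∈ S) (hne : ∃ v ∈ S, v ≠ 0) (v : V2 k) : v ∈ S := by
  obtain ⟨w, hw, hw0⟩ := hne
  have h0 : (0 : V2 k) ∈ S := by rw [← v2_two w]; exact hadd w hw w hw
  by_cases hv : v = 0
  · rw [hv]; exact h0
  -- a vector with `q = 1` in `S`
  have h1 : ∃ a ∈ S, q a = 1 := by
    rcases z2 (q w) with h | h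
    · -- w singular: choose singular u with bf u w = 1, then w + u has q = 1
      obtain ⟨u, hu1, hu2⟩ := hq.exQ1 hk hw0 1 0
      have hu0 : u ≠ 0 := by rintro rfl; rw [bf_zero_left] at hu1; exact z2_ne hu1.symm
      obtain ⟨A, hA, hA'⟩ := hq.Wq_trans hk hw0 hu0 (by rw [h, hu2])
      refine ⟨w + u, hadd _ hw _ (by rw [← hA']; exact hinv A hA w hw), ?_⟩
      rw [hq.add, h, hu2, bf_comm, hu1, zero_add, zero_add]
    · exact ⟨w, hw, h⟩
  obtain ⟨a, ha, ha1⟩ := h1
  have hall : ∀ b, q b = 1 → b ∈ S := by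
    intro b hb
    obtain ⟨A, hA, hA'⟩ := hq.Wq_trans hk (hq.ne_zero ha1) (hq.ne_zero hb) (by rw [ha1, hb])
    rw [← hA']; exact hinv A hA a ha
  rcases z2 (q v) with h | h
  · obtain ⟨a, ha1, ha2⟩ := hq.exQ1 hk hv 0 1
    have h1 : q (v + a) = 1 := by rw [hq.add, h, ha2, bf_comm, ha1, zero_add, add_zero]
    have := hadd _ (hall _ h1) _ (hall a ha2)
    rwa [add_assoc, v2_two, add_zero] at this
  · exact hall v h

end YCore

end Cfsg.Agent.H888.C6
end

-- part: H888/C6/PBig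
section
/-!
# The group `Y` modulo scalars (helper888)

`YCore.big` : `R` modulo scalars is a normal elementary abelian subgroup of `Y` modulo scalars, irreducible, and every
nontrivial character has at least `(n + 1) (n - 2) / 2` conjugates, `n = 2 ^ k`.
-/

set_option autoImplicit false

namespace Cfsg.Agent.H888.C6

open Cfsg Cfsg.Geo Matrix Cfsg.Agent.ClassicalGeometry.SympBasic Cfsg.Agent.H920
open scoped commutatorElement

variable {ι : Type} [Fintype ι] [DecidableEq ι] {F : Type*} [Field F] {R : Subgroup (GL ι F)} {k : ℕ}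

instance scalars_sub_normal (Y : Subgroup (GL ι F)) : ((scalars ι F).subgroupOf Y).Normal := by
  constructor
  intro z hz y
  rw [Subgroup.mem_subgroupOf] at hz ⊢
  rw [Subgroup.coe_mul, Subgroup.coe_mul, Subgroup.coe_inv, ← scalars_comm hz, mul_inv_cancel_right]
  exact hz

/-- `Y` modulo scalars -/
abbrev QY (Y : Subgroup (GL ι F)) : Type _ := ↥Y ⧸ (scalars ι F).subgroupOf Y

/-- the class of an element -/
abbrev mkY (Y : Subgroup (GL ι F)) : ↥Y →* QY Y := QuotientGroup.mk' _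

theorem mkY_eq_one {Y : Subgroup (GL ι F)} {y : Y} : mkY Y y = 1 ↔ (y : GL ι F) ∈ scalars ι F := by
  rw [QuotientGroup.mk'_apply, QuotientGroup.eq_one_iff, Subgroup.mem_subgroupOf]

theorem mkY_eq {Y : Subgroup (GL ι F)} {y z : Y} : mkY Y y = mkY Y z ↔ (y : GL ι F) * (z : GL ι F)⁻¹ ∈ scalars ι F := by
  rw [← mul_inv_eq_one, ← map_inv, ← map_mul, mkY_eq_one, Subgroup.coe_mul, Subgroup.coe_inv]

/-- `R` modulo scalars -/
def AY (R Y : Subgroup (GL ι F)) : Subgroup (QY Y) := (R.subgroupOf Y).map (mkY Y)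

theorem mem_AY {Y : Subgroup (GL ι F)} {a : QY Y} : a ∈ AY R Y ↔ ∃ y : Y, (y : GL ι F) ∈ R ∧ mkY Y y = a := by
  unfold AY
  rw [Subgroup.mem_map]
  exact Iff.rfl

/-- the half of `(n + 1) (n - 2)`, `n = 2 ^ k`. -/
def N0 (k : ℕ) : ℕ := 2 ^ (2 * k - 1) - 2 ^ (k - 1) - 1

theorem N0_le {k m : ℕ} (hk : 1 ≤ k) (h : 2 ^ (2 * k) ≤ 2 * m + 2 ^ k) : N0 k ≤ m := by
  unfold N0
  have h1 : 2 ^ (2 * k) = 2 * 2 ^ (2 * k - 1) := by
    rw [← pow_succ']; congr 1; omega
  have h3 : 2 ^ k = 2 * 2 ^ (k - 1) := by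
    rw [← pow_succ']; congr 1; omega
  omega

theorem N0_le' {k m : ℕ} (hk : 1 ≤ k) (h : 2 ^ (2 * k) ≤ 2 * (m + 1) + 2 ^ k) : N0 k ≤ m := by
  unfold N0
  have h1 : 2 ^ (2 * k) = 2 * 2 ^ (2 * k - 1) := by
    rw [← pow_succ']; congr 1; omega
  have h3 : 2 ^ k = 2 * 2 ^ (k - 1) := by
    rw [← pow_succ']; congr 1; omega
  omega

theorem two_N0 {k : ℕ} (hk : 2 ≤ k) : 2 * N0 k = (2 ^ k + 1) * (2 ^ k - 2) := by
  unfold N0
  have h1 : 2 ^ (2 * k) = 2 * 2 ^ (2 * k - 1) := by
    rw [← pow_succ']; congr 1; omega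
  have h3 : 2 ^ k = 2 * 2 ^ (k - 1) := by
    rw [← pow_succ']; congr 1; omega
  have h4 : 2 ^ (2 * k) = 2 ^ k * 2 ^ k := by rw [two_mul, pow_add]
  have h5 : 4 ≤ 2 ^ k := by
    calc 4 = 2 ^ 2 := by norm_num
      _ ≤ 2 ^ k := Nat.pow_le_pow_right (by norm_num) hk
  obtain ⟨m, hm⟩ : ∃ m, 2 ^ k = m + 2 := ⟨2 ^ k - 2, by omega⟩
  have h6 : (2 ^ k + 1) * (2 ^ k - 2) = 2 ^ (2 * k) - 2 ^ k - 2 := by
    rw [h4, hm]
    have : (m + 2) * (m + 2) = (m + 2 + 1) * (m + 2 - 2) + (m + 2) + 2 := by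
      rw [Nat.add_sub_cancel]; ring
    omega
  omega

section

variable {C : Coord R 2 k} {q : V2 k → ZMod 2} {Y : Subgroup (GL ι F)}

instance AY_normal [Fact (R ≤ Y ∧ Y ≤ subgroupNormalizer R)] : (AY R Y).Normal := by
  have h : R ≤ Y ∧ Y ≤ subgroupNormalizer R := Fact.out
  constructor
  intro a ha g
  obtain ⟨x, hx, rfl⟩ := mem_AY.1 ha
  obtain ⟨y, rfl⟩ := QuotientGroup.mk'_surjective _ g
  refine mem_AY.2 ⟨y * x * y⁻¹, ?_, by rw [map_mul, map_mul, map_inv]⟩
  have h1 := h.2 y.2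
  rw [subgroupNormalizer, Subgroup.mem_normalizer_iff] at h1
  exact (h1 x).1 hx

theorem YCore.fact (hY : YCore C q Y) : Fact (R ≤ Y ∧ Y ≤ subgroupNormalizer R) := ⟨⟨hY.le, hY.norm⟩⟩

/-- coordinates of `A` -/
theorem exists_e (C : Coord R 2 k) (hRY : R ≤ Y) : ∃ e : AY R Y → V2 k,
    (∀ (x : R) (h : mkY Y ⟨x, hRY x.2⟩ ∈ AY R Y), e ⟨_, h⟩ = C.φ x) ∧ (∀ a b, e (a * b) = e a + e b) ∧
      Function.Bijective e := by
  have hex : ∀ a : AY R Y, ∃ x : R, mkY Y ⟨x, hRY x.2⟩ = a := by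
    rintro ⟨a, ha⟩
    obtain ⟨y, hy, rfl⟩ := mem_AY.1 ha
    exact ⟨⟨y, hy⟩, rfl⟩
  choose f hf using hex
  have hwell : ∀ x x' : R, mkY Y ⟨x, hRY x.2⟩ = mkY Y ⟨x', hRY x'.2⟩ ↔ C.φ x = C.φ x' := by
    intro x x'
    rw [mkY_eq]
    change (x : GL ι F) * (x' : GL ι F)⁻¹ ∈ scalars ι F ↔ _
    have h1 : (x : GL ι F) * (x' : GL ι F)⁻¹ = ((x * x'⁻¹ : R) : GL ι F) := by
      rw [Subgroup.coe_mul, Subgroup.coe_inv]
    rw [h1, ← C.ker_iff, C.map_mul, φ_neg_eq]
    exact ⟨fun h => v2_eq_of_add h, fun h => by rw [h, v2_two]⟩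
  refine ⟨fun a => C.φ (f a), ?_, ?_, ?_, ?_⟩
  · intro x h
    exact (hwell _ _).1 (hf ⟨_, h⟩)
  · intro a b
    rw [← C.map_mul]
    apply (hwell _ _).1
    rw [hf]
    have : mkY Y ⟨((f a * f b : R) : GL ι F), hRY (f a * f b).2⟩ =
      mkY Y ⟨f a, hRY (f a).2⟩ * mkY Y ⟨f b, hRY (f b).2⟩ := by
      rw [← map_mul]; rfl
    rw [this, hf, hf]; rfl
  · intro a b hab
    have := (hwell _ _).2 hab
    rw [hf, hf] at this
    exact Subtype.ext this
  · intro v
    obtain ⟨x, rfl⟩ := C.surj v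
    refine ⟨⟨mkY Y ⟨x, hRY x.2⟩, mem_AY.2 ⟨⟨x, hRY x.2⟩, x.2, rfl⟩⟩, ?_⟩
    exact (hwell _ _).1 (hf _)

theorem card_AY (C : Coord R 2 k) (hRY : R ≤ Y) : Nat.card (AY R Y) = 2 ^ (2 * k) := by
  obtain ⟨e, -, -, he⟩ := exists_e C hRY
  rw [Nat.card_congr (Equiv.ofBijective e he), Nat.card_eq_fintype_card, card_v2]

/-- additive maps to `ZMod 2` are given by the form -/
theorem exists_bf_repr (f : V2 k → ZMod 2) (hf : ∀ v w, f (v + w) = f v + f w) : ∃ u, ∀ v, f v = bf v u := by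
  let g : V2 k →ₗ[ZMod 2] ZMod 2 :=
    { toFun := f
      map_add' := hf
      map_smul' := fun c v => by
        rw [RingHom.id_apply]
        rcases z2 c with rfl | rfl
        · rw [zero_smul, zero_smul]
          have := hf 0 0
          rw [add_zero] at this
          exact (left_eq_add.1 this)
        · rw [one_smul, one_smul] }
  let u : V2 k := Sum.elim (fun i => g (Pi.single (Sum.inr i) 1)) (fun i => g (Pi.single (Sum.inl i) 1))
  refine ⟨u, fun v => ?_⟩
  have h1 : g = (sympBilin k (ZMod 2)).flip u := by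
    apply LinearMap.pi_ext'
    intro j
    ext
    change g (Pi.single j 1) = bf (Pi.single j 1) u
    rcases j with i | i
    · rw [bf, sympForm_single_inl_left]
      change _ = - (g (Pi.single (Sum.inl i) 1))
      exact (neg_eq_of_add_eq_zero_left (z2_two _)).symm
    · rw [bf, sympForm_single_inr_left]; rfl
  exact congrArg (fun h : V2 k →ₗ[ZMod 2] ZMod 2 => h v) h1

theorem YCore.big [Finite F] [Nonempty ι] (T : TC C q) (hk : 3 ≤ k) (hY : YCore C q Y) :
    haveI := hY.fact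
    Big (AY R Y) (N0 k) := by
  classical
  haveI := hY.fact
  have hq := T.isQ
  obtain ⟨e, he1, he2, he3⟩ := exists_e C hY.le
  have heq1 : e 1 = 0 := by
    have := he2 1 1
    rw [mul_one] at this
    exact (left_eq_add.1 this)
  have hmem : ∀ x : R, mkY Y ⟨x, hY.le x.2⟩ ∈ AY R Y := fun x => mem_AY.2 ⟨_, x.2, rfl⟩
  have hrep : ∀ a : AY R Y, ∃ x : R, a = ⟨mkY Y ⟨x, hY.le x.2⟩, hmem x⟩ := by
    rintro ⟨a, ha⟩
    obtain ⟨y, hy, rfl⟩ := mem_AY.1 ha
    exact ⟨⟨y, hy⟩, rfl⟩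
  have hcomm : ∀ a b : AY R Y, a * b = b * a := by
    intro a b
    apply he3.1
    rw [he2, he2, add_comm]
  -- conjugation
  have hconj : ∀ A ∈ Wq q, ∃ y : QY Y, ∀ a : AY R Y, e (MulAut.conjNormal y a) = ac A (e a) := by
    intro A hA
    obtain ⟨g, hg, hi⟩ := hY.ind A hA
    refine ⟨mkY Y ⟨g, hg⟩, fun a => ?_⟩
    obtain ⟨x, rfl⟩ := hrep a
    obtain ⟨x', h1, h3⟩ := hi x
    have h4 : MulAut.conjNormal (mkY Y ⟨g, hg⟩) ⟨mkY Y ⟨x, hY.le x.2⟩, hmem x⟩ =
        (⟨mkY Y ⟨x', hY.le x'.2⟩, hmem x'⟩ : AY R Y) := by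
      apply Subtype.ext
      rw [MulAut.conjNormal_apply]
      change mkY Y ⟨g, hg⟩ * mkY Y ⟨x, hY.le x.2⟩ * (mkY Y ⟨g, hg⟩)⁻¹ = mkY Y ⟨x', hY.le x'.2⟩
      rw [← map_inv, ← map_mul, ← map_mul]
      congr 1
      exact Subtype.ext h1
    rw [h4, he1, he1, h3]
    rfl
  refine ⟨inferInstance, hcomm, ?_, ?_, ?_⟩
  · intro a
    apply he3.1
    rw [he2, v2_two, heq1]
  · intro B hBA hB
    by_cases hbot : B = ⊥
    · exact Or.inl hbot
    right
    obtain ⟨⟨b, hb⟩, hb1⟩ := Subgroup.ne_bot_iff_exists_ne_one.1 hbot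
    apply le_antisymm hBA
    intro a ha
    have := hY.irr hq hk {v | ∃ c : AY R Y, (c : QY Y) ∈ B ∧ e c = v} ?_ ?_ ?_ (e ⟨a, ha⟩)
    · obtain ⟨c, hc, hc'⟩ := this
      have h1 := he3.1 hc'
      rw [h1] at hc
      exact hc
    · rintro _ ⟨c, hc, rfl⟩ _ ⟨d, hd, rfl⟩
      exact ⟨c * d, Subgroup.mul_mem _ hc hd, he2 _ _⟩
    · rintro A hA _ ⟨c, hc, rfl⟩
      obtain ⟨y, hy⟩ := hconj A hA
      refine ⟨MulAut.conjNormal y c, ?_, hy c⟩
      rw [MulAut.conjNormal_apply]
      exact hB y c hc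
    · refine ⟨e ⟨b, hBA hb⟩, ⟨⟨b, hBA hb⟩, hb, rfl⟩, ?_⟩
      intro h0
      apply hb1
      rw [← heq1] at h0
      have := congrArg Subtype.val (he3.1 h0)
      exact Subtype.ext this
  · intro lam hlam
    -- the vector of lam
    let einv : V2 k → AY R Y := (Equiv.ofBijective e he3).symm
    have hee : ∀ v, e (einv v) = v := fun v => (Equiv.ofBijective e he3).apply_symm_apply v
    have hee' : ∀ a, einv (e a) = a := fun a => (Equiv.ofBijective e he3).symm_apply_apply a
    let s : ℤˣ → ZMod 2 := fun u => if u = 1 then 0 else 1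
    have hs : ∀ u w, s (u * w) = s u + s w := by decide
    have hsinj : Function.Injective s := by
      intro u w
      revert u w
      decide
    obtain ⟨u, hu⟩ := exists_bf_repr (k := k) (fun v => s (lam (einv v))) (by
      intro v w
      have : einv (v + w) = einv v * einv w := he3.1 (by rw [hee, he2, hee, hee])
      rw [this, map_mul, hs])
    have hlam' : ∀ a, s (lam a) = bf (e a) u := by
      intro a
      have := hu (e a)
      rw [hee'] at this
      exact this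
    have hu0 : u ≠ 0 := by
      rintro rfl
      apply hlam
      ext a
      have h1 : s (lam a) = s 1 := by rw [hlam', bf_zero_right]; rfl
      rw [hsinj h1]; rfl
    -- the orbit
    have horb : ∀ u', u' ≠ 0 → q u' = q u → ∃ mu ∈ orbSet (AY R Y) lam, ∀ a, s (mu a) = bf (e a) u' := by
      intro u' hu' hqu
      obtain ⟨A, hA, hA'⟩ := hq.Wq_trans hk hu' hu0 hqu
      obtain ⟨y, hy⟩ := hconj A hA
      refine ⟨_, ⟨y, rfl⟩, fun a => ?_⟩
      change s (lam (MulAut.conjNormal y a)) = _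
      rw [hlam', hy, ← hA', ac_bf]
    choose! mu hmu hmu' using horb
    have hfin : Finite (AY R Y →* ℤˣ) := by
      haveI : Finite (AY R Y) := inferInstance
      exact Finite.of_injective (fun f : AY R Y →* ℤˣ => (f : AY R Y → ℤˣ)) DFunLike.coe_injective
    have hcard : Fintype.card {v : V2 k // v ≠ 0 ∧ q v = q u} ≤ (orbSet (AY R Y) lam).ncard := by
      rw [← Nat.card_eq_fintype_card]
      change _ ≤ Nat.card (orbSet (AY R Y) lam)
      apply Nat.card_le_card_of_injective (fun v : {v : V2 k // v ≠ 0 ∧ q v = q u} =>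
        (⟨mu v.1, hmu _ v.2.1 v.2.2⟩ : orbSet (AY R Y) lam))
      intro v w hvw
      have h1 : mu v.1 = mu w.1 := congrArg Subtype.val hvw
      apply Subtype.ext
      apply v2_eq_of_add
      by_contra hne
      obtain ⟨x, hx⟩ := exists_bf_one hne
      have h3 := hmu' _ v.2.1 v.2.2 (einv x)
      have h4 := hmu' _ w.2.1 w.2.2 (einv x)
      rw [h1, h4, hee] at h3
      rw [bf_add_right, h3, z2_two] at hx
      exact z2_ne hx.symm
    refine le_trans ?_ hcard
    rcases z2 (q u) with h | h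
    · apply N0_le' (by omega)
      have h1 := hq.two_card_zero
      have h3 : Fintype.card {v : V2 k // q v = 0} = Fintype.card {v : V2 k // v ≠ 0 ∧ q v = q u} + 1 := by
        have h4 : Fintype.card {v : V2 k // v ≠ 0 ∧ q v = q u} = Fintype.card {v : {v : V2 k // q v = 0} // v ≠ ⟨0, hq.zero⟩} := by
          apply Fintype.card_congr
          exact
            { toFun := fun v => ⟨⟨v.1, by rw [v.2.2, h]⟩, fun h0 => v.2.1 (congrArg Subtype.val h0)⟩
              invFun := fun v => ⟨v.1.1, fun h0 => v.2 (Subtype.ext h0), by rw [v.1.2, h]⟩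
              left_inv := fun v => rfl
              right_inv := fun v => rfl }
        rw [h4, Fintype.card_subtype_compl, Fintype.card_subtype_eq]
        have : 0 < Fintype.card {v : V2 k // q v = 0} := Fintype.card_pos_iff.2 ⟨⟨0, hq.zero⟩⟩
        omega
      rw [h3] at h1
      exact h1
    · apply N0_le (by omega)
      have h1 := hq.two_card_one
      have h3 : Fintype.card {v : V2 k // q v = 1} = Fintype.card {v : V2 k // v ≠ 0 ∧ q v = q u} := by
        apply Fintype.card_congr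
        exact
          { toFun := fun v => ⟨v.1, hq.ne_zero v.2, by rw [v.2, h]⟩
            invFun := fun v => ⟨v.1, by rw [v.2.2, h]⟩
            left_inv := fun v => rfl
            right_inv := fun v => rfl }
      rw [h3] at h1
      exact h1

end

end Cfsg.Agent.H888.C6
end

-- part: H888/C6/PExist
section
/-!
# Existence of the data for the groups of the statements (helper888)

`exists_TC` : symplectic type, centre of order 2, absolutely irreducible.
`pairsIn_isometry`, `pairsIn_form` : the pairs preserve the invariant quadratic (bilinear) forms.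
-/

set_option autoImplicit false

namespace Cfsg.Agent.H888.C6

open Cfsg Cfsg.Geo Matrix Cfsg.Agent.ClassicalGeometry.SympBasic Cfsg.Agent.H920
open scoped commutatorElement

variable {ι : Type} [Fintype ι] [DecidableEq ι] {F : Type*} [Field F] {R : Subgroup (GL ι F)} {k : ℕ}

theorem exists_TC [Finite F] [Nonempty ι] (h2 : (2 : F) ≠ 0) (hR : IsSymplecticTypeGroup 2 R)
    (habs : ActsAbsolutelyIrreducibly (matrixSet R)) (hcard : Nat.card R = 2 ^ (1 + 2 * k))
    (hZ : Nat.card (Subgroup.center R) = 2) (hk : 1 ≤ k) :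
    Fintype.card ι = 2 ^ k ∧ ∃ (C : Coord R 2 k) (q : V2 k → ZMod 2), TC C q := by
  classical
  have hfin : Finite R := inferInstance
  have hdim : Fintype.card ι = 2 ^ k := H921.card_eq_pow_of_center_prime hR habs hZ hcard
  have hcc : ∀ x y : R, x * y * x⁻¹ * y⁻¹ ∈ Subgroup.center R := fun x y =>
    H921.commutator_mem_center hR (fun h => absurd h (by decide)) x y
  have hsqZ : ∀ z ∈ Subgroup.center R, z * z = 1 := by
    intro z hz
    have h1 : (⟨z, hz⟩ : Subgroup.center R) ^ 2 = 1 := by rw [← hZ]; exact pow_card_eq_one'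
    have := congrArg Subtype.val h1
    rw [pow_two] at this
    exact this
  have hcomm : ∀ x ∈ R, ∀ y ∈ R, x * y * x⁻¹ * y⁻¹ ∈ scalars ι F := fun x hx y hy =>
    mem_scalars_of_mem_center habs (hcc ⟨x, hx⟩ ⟨y, hy⟩)
  have hsq : ∀ x : R, x ^ 2 ∈ Subgroup.center R := by
    intro x
    rw [Subgroup.mem_center_iff]
    intro y
    have h1 := hcc x y
    have h3 := hsqZ _ h1
    have h4 := Subgroup.mem_center_iff.1 h1
    -- x y = c y x
    set c := x * y * x⁻¹ * y⁻¹ with hc
    have h5 : x * y = c * y * x := by rw [hc]; group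
    have h6 : x ^ 2 * y = y * x ^ 2 := by
      calc x ^ 2 * y = x * (x * y) := by rw [pow_two, mul_assoc]
        _ = x * (c * y * x) := by rw [h5]
        _ = (x * c) * y * x := by group
        _ = (c * x) * y * x := by rw [h4 x]
        _ = c * (x * y) * x := by group
        _ = c * (c * y * x) * x := by rw [h5]
        _ = (c * c) * (y * (x * x)) := by group
        _ = y * x ^ 2 := by rw [h3, one_mul, pow_two]
    exact h6.symm
  have hpow : ∀ x ∈ R, x ^ 2 ∈ scalars ι F := fun x hx => mem_scalars_of_mem_center habs (hsq ⟨x, hx⟩)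
  obtain ⟨C⟩ := exists_coord habs hcomm Nat.prime_two hk hpow hdim
  -- central elements are ±1
  have hpm : ∀ x : R, x ∈ Subgroup.center R →
      ((x : GL ι F) : Matrix ι ι F) = 1 ∨ ((x : GL ι F) : Matrix ι ι F) = -1 := by
    intro x hx
    obtain ⟨c, hc⟩ := (mem_scalars_iff _).1 (mem_scalars_of_mem_center habs hx)
    have h1 := hsqZ x hx
    have h3 : ((c : F) * (c : F)) • (1 : Matrix ι ι F) = (1 : F) • 1 := by
      have h4 : (((x * x : R) : GL ι F) : Matrix ι ι F) = 1 := by rw [h1]; rfl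
      rw [Subgroup.coe_mul, Units.val_mul, hc, Matrix.smul_mul, Matrix.mul_smul, Matrix.one_mul, smul_smul] at h4
      rw [h4, one_smul]
    have h4 : ((c : F) * (c : F)) = 1 := by
      have h5 := sub_eq_zero.2 h3
      rw [← sub_smul] at h5
      exact sub_eq_zero.1 ((smul_eq_zero.1 h5).resolve_right one_ne_zero)
    rcases mul_self_eq_one_iff.1 h4 with h | h
    · left; rw [hc, h, one_smul]
    · right; rw [hc, h, neg_smul, one_smul]
  let f : V2 k → R := fun v => (C.surj v).choose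
  have hf : ∀ v, C.φ (f v) = v := fun v => (C.surj v).choose_spec
  let q : V2 k → ZMod 2 := fun v => if (f v) ^ 2 = 1 then 0 else 1
  have hker : ∀ x : R, C.φ x = 0 → ((x : GL ι F) : Matrix ι ι F) = 1 ∨ ((x : GL ι F) : Matrix ι ι F) = -1 :=
    fun x hx => hpm x (mem_center_of_mem_scalars habs ((C.ker_iff x).1 hx))
  refine ⟨hdim, C, q, ⟨h2, ?_, hker⟩⟩
  intro x
  have h1 : C.φ (x * (f (C.φ x))⁻¹) = 0 := by rw [C.map_mul, φ_neg_eq, hf, v2_two]
  have h3 : ((x : GL ι F) : Matrix ι ι F) * ((x : GL ι F) : Matrix ι ι F) =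
      ((f (C.φ x) : GL ι F) : Matrix ι ι F) * ((f (C.φ x) : GL ι F) : Matrix ι ι F) := by
    have h4 : (x : GL ι F) = ((x * (f (C.φ x))⁻¹ : R) : GL ι F) * (f (C.φ x) : GL ι F) := by
      rw [Subgroup.coe_mul, Subgroup.coe_inv, inv_mul_cancel_right]
    rw [h4, Units.val_mul]
    rcases hker _ h1 with h | h
    · rw [h, Matrix.one_mul]
    · rw [h, Matrix.neg_mul, Matrix.one_mul, Matrix.neg_mul, Matrix.mul_neg, neg_neg]
  rw [h3]
  have h5 := hpm _ (hsq (f (C.φ x)))
  have h6 : (((f (C.φ x)) ^ 2 : R) : GL ι F) = (f (C.φ x) : GL ι F) * (f (C.φ x) : GL ι F) := by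
    rw [pow_two, Subgroup.coe_mul]
  rw [h6, Units.val_mul] at h5
  by_cases h7 : (f (C.φ x)) ^ 2 = 1
  · have h8 : q (C.φ x) = 0 := if_pos h7
    rw [h8, sF_zero, one_smul, ← Units.val_mul, ← h6, h7]; rfl
  · have h8 : q (C.φ x) = 1 := if_neg h7
    rw [h8, sF_one, neg_smul, one_smul]
    rcases h5 with h | h
    · exfalso
      apply h7
      apply Subtype.ext
      apply Units.ext
      rw [h6, Units.val_mul, h]; rfl
    · exact h

section Forms

variable {C : Coord R 2 k} {q : V2 k → ZMod 2}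

/-- bilinear forms -/
theorem form_pair (T : TC C q) {B : (ι → F) → (ι → F) → F} (hB : IsBilinearForm B)
    (hR : ∀ x : R, ∀ v w, B (((x : GL ι F) : Matrix ι ι F) *ᵥ v) (((x : GL ι F) : Matrix ι ι F) *ᵥ w) = B v w)
    {a : R} (ha : q (C.φ a) = 1) (v w : ι → F) :
    B ((1 + ((a : GL ι F) : Matrix ι ι F)) *ᵥ v) ((1 + ((a : GL ι F) : Matrix ι ι F)) *ᵥ w) = 2 * B v w := by
  have hsq : ((a : GL ι F) : Matrix ι ι F) * ((a : GL ι F) : Matrix ι ι F) = -1 := by
    rw [T.sqs, ha, sF_one, neg_smul, one_smul]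
  set M := ((a : GL ι F) : Matrix ι ι F) with hM
  have h1 : B v (M *ᵥ w) = - B (M *ᵥ v) w := by
    rw [← hR a v (M *ᵥ w), ← hM, Matrix.mulVec_mulVec, hsq, Matrix.neg_mulVec, Matrix.one_mulVec,
      ← neg_one_smul F w, hB.smul_right, neg_one_mul]
  rw [Matrix.add_mulVec, Matrix.add_mulVec, Matrix.one_mulVec, Matrix.one_mulVec, hB.add_left, hB.add_right,
    hB.add_right, hR a v w, h1]
  ring

/-- quadratic forms -/
theorem quad_pair (T : TC C q) {Q : (ι → F) → F} (hQ : IsNondegenerateQuadraticForm Q)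
    (hR : R ≤ isometryGroup F Q) {a : R} (ha : q (C.φ a) = 1) (v : ι → F) :
    Q ((1 + ((a : GL ι F) : Matrix ι ι F)) *ᵥ v) = 2 * Q v := by
  have hRQ : ∀ x : R, ∀ v, Q (((x : GL ι F) : Matrix ι ι F) *ᵥ v) = Q v := fun x v => hR x.2 v 0
  have hRB : ∀ x : R, ∀ v w, QuadraticMap.polar Q (((x : GL ι F) : Matrix ι ι F) *ᵥ v)
      (((x : GL ι F) : Matrix ι ι F) *ᵥ w) = QuadraticMap.polar Q v w := by
    intro x v w
    unfold QuadraticMap.polar
    rw [← Matrix.mulVec_add, hRQ, hRQ, hRQ]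
  have h1 := form_pair T hQ.polar_bilinear hRB ha v v
  have h3 : ∀ u, QuadraticMap.polar Q u u = 2 * Q u := by
    intro u
    unfold QuadraticMap.polar
    rw [← two_smul F u, hQ.smul]; ring
  rw [h3, h3] at h1
  exact mul_left_cancel₀ T.two h1

theorem pairsIn_isometry (T : TC C q) {Q : (ι → F) → F} (hQ : IsNondegenerateQuadraticForm Q)
    (hR : R ≤ isometryGroup F Q) : PairsIn C q (isometryGroup F Q) := by
  intro a b ha hb g hg u v
  change Q ((g : Matrix ι ι F) *ᵥ u) = Q u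
  rw [hg, Matrix.smul_mulVec, ← Matrix.mulVec_mulVec, hQ.smul, quad_pair T hQ hR ha, quad_pair T hQ hR hb, ← mul_assoc,
    ← mul_assoc]
  have : (2 : F)⁻¹ ^ 2 * 2 * 2 = 1 := by
    have := T.two
    field_simp
  rw [this, one_mul]

theorem pairsIn_form (T : TC C q) {B : (ι → F) → (ι → F) → F} (hB : IsBilinearForm B)
    (hR : ∀ x : R, ∀ v w, B (((x : GL ι F) : Matrix ι ι F) *ᵥ v) (((x : GL ι F) : Matrix ι ι F) *ᵥ w) = B v w)
    {a b : R} (ha : q (C.φ a) = 1) (hb : q (C.φ b) = 1) {g : GL ι F}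
    (hg : (g : Matrix ι ι F) = (2 : F)⁻¹ • ((1 + ((a : GL ι F) : Matrix ι ι F)) * (1 + ((b : GL ι F) : Matrix ι ι F))))
    (v w : ι → F) : B ((g : Matrix ι ι F) *ᵥ v) ((g : Matrix ι ι F) *ᵥ w) = B v w := by
  rw [hg, Matrix.smul_mulVec, Matrix.smul_mulVec, ← Matrix.mulVec_mulVec, ← Matrix.mulVec_mulVec, hB.smul_left,
    hB.smul_right, form_pair T hB hR ha, form_pair T hB hR hb, ← mul_assoc, ← mul_assoc, ← mul_assoc]
  have : (2 : F)⁻¹ * (2 : F)⁻¹ * 2 * 2 = 1 := by
    have := T.two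
    field_simp
  rw [this, one_mul]

end Forms

end Cfsg.Agent.H888.C6
end

-- part: H888/C6/Inv
section
/-!
# Invariant subspaces of the matrix algebra (helper888)

`decomp` : a matrix is the sum of its components, multiples of elements of `R`; the components stay in each subspace
invariant under conjugation by `R`.
`scalar_or_absIrr` : a group normalised by `Y` is scalar or absolutely irreducible.
`mem_of_commutes` : an element commuting with `R` modulo scalars is in `R` up to scalars.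
-/

set_option autoImplicit false

namespace Cfsg.Agent.H888.C6

open Cfsg Cfsg.Geo Matrix Cfsg.Agent.ClassicalGeometry.SympBasic Cfsg.Agent.H920
open scoped commutatorElement

variable {ι : Type} [Fintype ι] [DecidableEq ι] {F : Type*} [Field F] {R : Subgroup (GL ι F)} {k : ℕ}
variable {C : Coord R 2 k} {q : V2 k → ZMod 2}

/-- a lift of a vector -/
noncomputable def lft (C : Coord R 2 k) (v : V2 k) : R := (C.surj v).choose

theorem φ_lft (C : Coord R 2 k) (v : V2 k) : C.φ (lft C v) = v := (C.surj v).choose_spec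

/-- the matrix of the lift -/
noncomputable def EE (C : Coord R 2 k) (v : V2 k) : Matrix ι ι F := ((lft C v : GL ι F) : Matrix ι ι F)

/-- its inverse -/
noncomputable def EI (C : Coord R 2 k) (v : V2 k) : Matrix ι ι F := (((lft C v : GL ι F)⁻¹ : GL ι F) : Matrix ι ι F)

theorem EE_EI (C : Coord R 2 k) (v : V2 k) : EE C v * EI C v = 1 := by
  rw [EE, EI, ← Units.val_mul, mul_inv_cancel]; rfl

theorem EI_EE (C : Coord R 2 k) (v : V2 k) : EI C v * EE C v = 1 := by
  rw [EE, EI, ← Units.val_mul, inv_mul_cancel]; rfl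

theorem EE_comm (C : Coord R 2 k) (v w : V2 k) : EE C v * EE C w = sF F (bf v w) • (EE C w * EE C v) := by
  have := comm_sF C (lft C v) (lft C w)
  rw [φ_lft, φ_lft] at this
  exact this

theorem EE_ne_zero [Nonempty ι] (C : Coord R 2 k) (v : V2 k) : EE C v ≠ 0 := by
  intro h
  have := EE_EI C v
  rw [h, Matrix.zero_mul] at this
  exact zero_ne_one this

theorem TC.EE_mul (T : TC C q) (v w : V2 k) : ∃ a : ZMod 2, EE C v * EE C w = sF F a • EE C (v + w) := by
  have h1 : C.φ (lft C v * lft C w * (lft C (v + w))⁻¹) = 0 := by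
    rw [C.map_mul, C.map_mul, φ_neg_eq, φ_lft, φ_lft, φ_lft, v2_two]
  have h3 : EE C v * EE C w = ((lft C v * lft C w * (lft C (v + w))⁻¹ : R) : GL ι F) * EE C (v + w) := by
    change _ = ((_ : GL ι F) : Matrix ι ι F) * ((lft C (v + w) : GL ι F) : Matrix ι ι F)
    rw [← Units.val_mul, Subgroup.coe_mul, Subgroup.coe_mul, Subgroup.coe_inv, inv_mul_cancel_right, Units.val_mul]
    rfl
  rcases T.ker _ h1 with h | h
  · exact ⟨0, by rw [h3, h, Matrix.one_mul, sF_zero, one_smul]⟩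
  · exact ⟨1, by rw [h3, h, Matrix.neg_mul, Matrix.one_mul, sF_one, neg_smul, one_smul]⟩

theorem TC.exists_smul_EE (T : TC C q) (x : R) : ∃ a : ZMod 2, ((x : GL ι F) : Matrix ι ι F) = sF F a • EE C (C.φ x) := by
  have h1 : C.φ (x * (lft C (C.φ x))⁻¹) = 0 := by
    rw [C.map_mul, φ_neg_eq, φ_lft, v2_two]
  have h3 : ((x : GL ι F) : Matrix ι ι F) = ((x * (lft C (C.φ x))⁻¹ : R) : GL ι F) * EE C (C.φ x) := by
    change _ = ((_ : GL ι F) : Matrix ι ι F) * ((lft C (C.φ x) : GL ι F) : Matrix ι ι F)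
    rw [← Units.val_mul, Subgroup.coe_mul, Subgroup.coe_inv, inv_mul_cancel_right]
  rcases T.ker _ h1 with h | h
  · exact ⟨0, by rw [h3, h, Matrix.one_mul, sF_zero, one_smul]⟩
  · exact ⟨1, by rw [h3, h, Matrix.neg_mul, Matrix.one_mul, sF_one, neg_smul, one_smul]⟩

/-- a matrix commuting with the `EE` is scalar -/
theorem TC.scalar_of_comm (T : TC C q) (habs : ActsAbsolutelyIrreducibly (matrixSet R)) {M : Matrix ι ι F}
    (h : ∀ w, EE C w * M = M * EE C w) : ∃ c : F, M = c • 1 := by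
  apply habs.2
  rintro _ ⟨x, hx, rfl⟩
  obtain ⟨a, ha⟩ := T.exists_smul_EE ⟨x, hx⟩
  change M * (x : Matrix ι ι F) = (x : Matrix ι ι F) * M
  change (x : Matrix ι ι F) = _ at ha
  rw [ha, Matrix.mul_smul, Matrix.smul_mul, h]

/-- an eigenvector of all conjugations -/
theorem TC.smul_of_eig (T : TC C q) (habs : ActsAbsolutelyIrreducibly (matrixSet R)) {M : Matrix ι ι F} {v : V2 k}
    (h : ∀ w, EE C w * M = sF F (bf w v) • (M * EE C w)) : ∃ c : F, M = c • EE C v := by
  obtain ⟨c, hc⟩ := T.scalar_of_comm habs (M := M * EI C v) (by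
    intro w
    have h1 : EI C v * EE C w = sF F (bf w v) • (EE C w * EI C v) := by
      have h3 := EE_comm C w v
      calc EI C v * EE C w = EI C v * (EE C w * EE C v) * EI C v := by
            rw [Matrix.mul_assoc, Matrix.mul_assoc, EE_EI, Matrix.mul_one]
        _ = EI C v * (sF F (bf w v) • (EE C v * EE C w)) * EI C v := by rw [h3]
        _ = sF F (bf w v) • (EI C v * EE C v * EE C w * EI C v) := by
            rw [Matrix.mul_smul, Matrix.smul_mul]; simp only [Matrix.mul_assoc]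
        _ = _ := by rw [EI_EE, Matrix.one_mul]
    rw [← Matrix.mul_assoc, h, Matrix.smul_mul, Matrix.mul_assoc M (EI C v), h1, Matrix.mul_smul, Matrix.mul_assoc])
  refine ⟨c, ?_⟩
  calc M = M * EI C v * EE C v := by rw [Matrix.mul_assoc, EI_EE, Matrix.mul_one]
    _ = _ := by rw [hc, Matrix.smul_mul, Matrix.one_mul]

/-- the component -/
noncomputable def cmp (C : Coord R 2 k) (M : Matrix ι ι F) (v : V2 k) : Matrix ι ι F :=
  ((2 : F) ^ (2 * k))⁻¹ • ∑ u : V2 k, sF F (bf u v) • (EE C u * M * EI C u)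

theorem sum_sF (h2 : (2 : F) ≠ 0) {u : V2 k} (hu : u ≠ 0) : ∑ v : V2 k, sF F (bf u v) = 0 := by
  obtain ⟨w, hw⟩ := exists_bf_one hu
  have h1 : ∑ v : V2 k, sF F (bf u (v + w)) = ∑ v : V2 k, sF F (bf u v) :=
    Fintype.sum_equiv (Equiv.addRight w) _ _ (fun v => rfl)
  have h3 : ∑ v : V2 k, sF F (bf u (v + w)) = - ∑ v : V2 k, sF F (bf u v) := by
    rw [← Finset.sum_neg_distrib]
    refine Finset.sum_congr rfl fun v _ => ?_
    rw [bf_add_right, bf_comm u w, hw, sF_mul, sF_one]; ring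
  rw [h3] at h1
  have h4 : (2 : F) * ∑ v : V2 k, sF F (bf u v) = 0 := by
    rw [two_mul]; nth_rewrite 1 [← h1]; ring
  exact (mul_eq_zero.1 h4).resolve_left h2

theorem TC.sum_cmp (T : TC C q) (M : Matrix ι ι F) : ∑ v : V2 k, cmp C M v = M := by
  unfold cmp
  rw [← Finset.smul_sum, Finset.sum_comm]
  have h1 : ∀ u : V2 k, ∑ v : V2 k, sF F (bf u v) • (EE C u * M * EI C u) =
      (∑ v : V2 k, sF F (bf u v)) • (EE C u * M * EI C u) := fun u => by rw [Finset.sum_smul]
  simp only [h1]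
  rw [Finset.sum_eq_single (0 : V2 k)]
  · have h3 : ∑ v : V2 k, sF F (bf (0 : V2 k) v) = (2 : F) ^ (2 * k) := by
      simp only [bf_zero_left, sF_zero]
      rw [Finset.sum_const, Finset.card_univ, card_v2, nsmul_eq_mul, mul_one]
      push_cast; rfl
    have h4 : EE C 0 * M * EI C 0 = M := by
      rcases T.ker (lft C 0) (φ_lft C 0) with h | h
      · have h5 : EI C 0 = 1 := by
          have := EE_EI C 0
          rw [EE, h, Matrix.one_mul] at this; exact this
        rw [h5, EE, h, Matrix.one_mul, Matrix.mul_one]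
      · have h5 : EI C 0 = -1 := by
          have := EE_EI C 0
          rw [EE, h, Matrix.neg_mul, Matrix.one_mul] at this
          rw [← this, neg_neg]
        rw [h5, EE, h, Matrix.neg_mul, Matrix.one_mul, Matrix.mul_neg, Matrix.mul_one, neg_neg]
    rw [h3, h4, smul_smul, inv_mul_cancel₀ (pow_ne_zero _ T.two), one_smul]
  · intro u _ hu
    rw [sum_sF T.two hu, zero_smul]
  · intro h; exact absurd (Finset.mem_univ _) h

theorem TC.cmp_eq (T : TC C q) (habs : ActsAbsolutelyIrreducibly (matrixSet R)) (M : Matrix ι ι F) (v : V2 k) :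
    ∃ c : F, cmp C M v = c • EE C v := by
  apply T.smul_of_eig habs
  intro w
  unfold cmp
  rw [Matrix.mul_smul, Matrix.smul_mul, smul_comm (sF F (bf w v))]
  congr 1
  rw [Finset.mul_sum, Finset.sum_mul, Finset.smul_sum]
  -- reindex u ↦ w + u
  have h1 : ∑ u : V2 k, EE C w * (sF F (bf u v) • (EE C u * M * EI C u)) =
      ∑ u : V2 k, EE C w * (sF F (bf (w + u) v) • (EE C (w + u) * M * EI C (w + u))) :=
    (Fintype.sum_equiv (Equiv.addLeft w) _ _ (fun u => rfl)).symm
  have key : ∀ u, EE C (w + u) * M * EI C (w + u) = EE C w * (EE C u * M * EI C u) * EI C w := by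
    intro u
    obtain ⟨a, ha⟩ := T.EE_mul w u
    have h3 : EE C (w + u) = sF F a • (EE C w * EE C u) := by
      rw [ha, smul_smul, sF_sq, one_smul]
    have h4 : EI C (w + u) = sF F a • (EI C u * EI C w) := by
      have h5 : (sF F a • (EI C u * EI C w)) * EE C (w + u) = 1 := by
        rw [h3, Matrix.smul_mul, Matrix.mul_smul, smul_smul, sF_sq, one_smul]
        calc EI C u * EI C w * (EE C w * EE C u) = EI C u * (EI C w * EE C w) * EE C u := by
              simp only [Matrix.mul_assoc]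
          _ = 1 := by rw [EI_EE, Matrix.mul_one, EI_EE]
      calc EI C (w + u) = (sF F a • (EI C u * EI C w)) * EE C (w + u) * EI C (w + u) := by rw [h5, Matrix.one_mul]
        _ = _ := by rw [Matrix.mul_assoc, EE_EI, Matrix.mul_one]
    rw [h3, h4, Matrix.smul_mul, Matrix.smul_mul, Matrix.mul_smul, smul_smul, sF_sq, one_smul]
    simp only [Matrix.mul_assoc]
  have hww : ∀ X : Matrix ι ι F, EE C w * (EE C w * X * EI C w) = X * EE C w := by
    intro X
    have hs : ∃ s : F, EE C w * EE C w = s • 1 ∧ EI C w = s • EE C w ∧ s * s = 1 := by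
      refine ⟨sF F (q w), ?_, ?_, sF_sq _⟩
      · have := T.sqs (lft C w)
        rw [φ_lft] at this; exact this
      · have h5 := T.sqs (lft C w)
        rw [φ_lft] at h5
        change EE C w * EE C w = _ at h5
        calc EI C w = (sF F (q w) * sF F (q w)) • EI C w := by rw [sF_sq, one_smul]
          _ = sF F (q w) • ((sF F (q w) • (1 : Matrix ι ι F)) * EI C w) := by
            rw [Matrix.smul_mul, Matrix.one_mul, smul_smul]
          _ = _ := by rw [← h5, Matrix.mul_assoc, EE_EI, Matrix.mul_one]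
    obtain ⟨s, h5, h6, h7⟩ := hs
    rw [h6, Matrix.mul_smul, Matrix.mul_smul, ← Matrix.mul_assoc, ← Matrix.mul_assoc, h5, Matrix.smul_mul,
      Matrix.one_mul, Matrix.smul_mul, smul_smul, h7, one_smul]
  rw [h1]
  refine Finset.sum_congr rfl fun u _ => ?_
  rw [key u, Matrix.mul_smul, hww, bf_add_left, sF_mul, Matrix.smul_mul, smul_smul]

/-- components stay in invariant subspaces -/
theorem cmp_mem (C : Coord R 2 k) {U : Submodule F (Matrix ι ι F)}
    (hU : ∀ x ∈ R, ∀ M ∈ U, (x : Matrix ι ι F) * M * ((x⁻¹ : GL ι F) : Matrix ι ι F) ∈ U) {M : Matrix ι ι F}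
    (hM : M ∈ U) (v : V2 k) : cmp C M v ∈ U := by
  unfold cmp
  apply Submodule.smul_mem
  apply Submodule.sum_mem
  intro u _
  apply Submodule.smul_mem
  exact hU _ (lft C u).2 M hM

end Cfsg.Agent.H888.C6
end

-- part: H888/C6/Red1
section
/-!
# Reduction, part 1 (helper888)

`scalar_or_absIrr` : a group normalised by `Y` is scalar or absolutely irreducible.
`mem_of_commutes` : an element commuting with `R` modulo scalars is a multiple of an element of `R`.
`norm_of_abelian` : a non-scalar normal subgroup of `H ≥ Y`, abelian modulo scalars, forces `H ≤ N(R)`.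
-/

set_option autoImplicit false

namespace Cfsg.Agent.H888.C6

open Cfsg Cfsg.Geo Matrix Cfsg.Agent.ClassicalGeometry.SympBasic Cfsg.Agent.H920
open scoped commutatorElement

variable {ι : Type} [Fintype ι] [DecidableEq ι] {F : Type*} [Field F] {R : Subgroup (GL ι F)} {k : ℕ}
variable {C : Coord R 2 k} {q : V2 k → ZMod 2} {Y : Subgroup (GL ι F)}

theorem conj_adjoin {N : Subgroup (GL ι F)} {g : GL ι F} (h : ∀ x ∈ N, g * x * g⁻¹ ∈ N) {M : Matrix ι ι F}
    (hM : M ∈ Algebra.adjoin F (matrixSet N)) :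
    (g : Matrix ι ι F) * M * ((g⁻¹ : GL ι F) : Matrix ι ι F) ∈ Algebra.adjoin F (matrixSet N) := by
  induction hM using Algebra.adjoin_induction with
  | mem M hM =>
    obtain ⟨x, hx, rfl⟩ := hM
    apply Algebra.subset_adjoin
    exact ⟨g * x * g⁻¹, h x hx, by simp only [Units.val_mul]⟩
  | algebraMap c =>
    have : (g : Matrix ι ι F) * (algebraMap F (Matrix ι ι F) c) * ((g⁻¹ : GL ι F) : Matrix ι ι F) =
        algebraMap F (Matrix ι ι F) c := by
      rw [← Algebra.commutes, Matrix.mul_assoc, ← Units.val_mul, mul_inv_cancel, Units.val_one, Matrix.mul_one]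
    rw [this]
    exact Subalgebra.algebraMap_mem _ c
  | add x y _ _ hx hy =>
    rw [Matrix.mul_add, Matrix.add_mul]
    exact Subalgebra.add_mem _ hx hy
  | mul x y _ _ hx hy =>
    have : (g : Matrix ι ι F) * (x * y) * ((g⁻¹ : GL ι F) : Matrix ι ι F) =
        ((g : Matrix ι ι F) * x * ((g⁻¹ : GL ι F) : Matrix ι ι F)) *
          ((g : Matrix ι ι F) * y * ((g⁻¹ : GL ι F) : Matrix ι ι F)) := by
      have h1 : ((g⁻¹ : GL ι F) : Matrix ι ι F) * (g : Matrix ι ι F) = 1 := by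
        rw [← Units.val_mul, inv_mul_cancel]; rfl
      calc (g : Matrix ι ι F) * (x * y) * ((g⁻¹ : GL ι F) : Matrix ι ι F)
          = (g : Matrix ι ι F) * x * 1 * y * ((g⁻¹ : GL ι F) : Matrix ι ι F) := by
            rw [Matrix.mul_one]; simp only [Matrix.mul_assoc]
        _ = _ := by rw [← h1]; simp only [Matrix.mul_assoc]
    rw [this]
    exact Subalgebra.mul_mem _ hx hy

/-- invariant families of vectors -/
theorem YCore.conj_EE (T : TC C q) {g : GL ι F} {A : Sp2 k} (hi : C.Ind g (sm A)) (v : V2 k) :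
    ∃ a : ZMod 2, (g : Matrix ι ι F) * EE C v * ((g⁻¹ : GL ι F) : Matrix ι ι F) = sF F a • EE C (ac A v) := by
  obtain ⟨x', h1, h3⟩ := hi (lft C v)
  rw [φ_lft] at h3
  obtain ⟨a, ha⟩ := T.exists_smul_EE x'
  refine ⟨a, ?_⟩
  have h4 : (g : Matrix ι ι F) * EE C v * ((g⁻¹ : GL ι F) : Matrix ι ι F) = ((x' : GL ι F) : Matrix ι ι F) := by
    rw [← h1, Units.val_mul, Units.val_mul]; rfl
  rw [h4, ha, h3]
  rfl

theorem sF_ne (a : ZMod 2) : sF F a ≠ 0 := by
  intro h
  have := sF_sq (F := F) a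
  rw [h, zero_mul] at this
  exact zero_ne_one this

/-- **A group normalised by `Y` is scalar or absolutely irreducible.** -/
theorem YCore.scalar_or_absIrr [Nonempty ι] (T : TC C q) (hk : 3 ≤ k) (hY : YCore C q Y)
    (habs : ActsAbsolutelyIrreducibly (matrixSet R)) (N : Subgroup (GL ι F)) (hN : ∀ y ∈ Y, ∀ x ∈ N, y * x * y⁻¹ ∈ N) :
    N ≤ scalars ι F ∨ ActsAbsolutelyIrreducibly (matrixSet N) := by
  classical
  set! 𝒜 := Algebra.adjoin F (matrixSet N) with h𝒜
  have hconj : ∀ y ∈ Y, ∀ M ∈ 𝒜, (y : Matrix ι ι F) * M * ((y⁻¹ : GL ι F) : Matrix ι ι F) ∈ 𝒜 :=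
    fun y hy M hM => conj_adjoin (hN y hy) hM
  have hcmp : ∀ M ∈ 𝒜, ∀ v, cmp C M v ∈ 𝒜 := fun M hM v =>
    cmp_mem C (U := Subalgebra.toSubmodule 𝒜) (fun x hx M hM => hconj x (hY.le hx) M hM) hM v
  by_cases hS : ∃ v, v ≠ 0 ∧ EE C v ∈ 𝒜
  · right
    have hall : ∀ v, EE C v ∈ 𝒜 := by
      apply hY.irr T.isQ hk {v | EE C v ∈ 𝒜}
      · intro v hv w hw
        obtain ⟨a, ha⟩ := T.EE_mul v w
        have h1 : EE C (v + w) = sF F a • (EE C v * EE C w) := by rw [ha, smul_smul, sF_sq, one_smul]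
        change EE C (v + w) ∈ 𝒜
        rw [h1]
        exact Subalgebra.smul_mem _ (Subalgebra.mul_mem _ hv hw) _
      · intro A hA v hv
        obtain ⟨g, hg, hi⟩ := hY.ind A hA
        obtain ⟨a, ha⟩ := YCore.conj_EE T hi v
        have h1 : EE C (ac A v) = sF F a • ((g : Matrix ι ι F) * EE C v * ((g⁻¹ : GL ι F) : Matrix ι ι F)) := by
          rw [ha, smul_smul, sF_sq, one_smul]
        change EE C (ac A v) ∈ 𝒜
        rw [h1]
        exact Subalgebra.smul_mem _ (hconj g hg _ hv) _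
      · obtain ⟨v, hv0, hv⟩ := hS
        exact ⟨v, hv, hv0⟩
    have hR𝒜 : ∀ x ∈ R, (x : Matrix ι ι F) ∈ 𝒜 := by
      intro x hx
      obtain ⟨a, ha⟩ := T.exists_smul_EE ⟨x, hx⟩
      change (x : Matrix ι ι F) = _ at ha
      rw [ha]
      exact Subalgebra.smul_mem _ (hall _) _
    constructor
    · intro W hW
      apply habs.1
      have key : ∀ M ∈ 𝒜, W.map (Matrix.toLin' M) ≤ W := by
        intro M hM
        induction hM using Algebra.adjoin_induction with
        | mem M hM => exact hW M hM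
        | algebraMap c =>
          rintro _ ⟨w, hw, rfl⟩
          rw [Matrix.toLin'_apply, Algebra.algebraMap_eq_smul_one, Matrix.smul_mulVec, Matrix.one_mulVec]
          exact W.smul_mem c hw
        | add x y _ _ hx hy =>
          rintro _ ⟨w, hw, rfl⟩
          rw [Matrix.toLin'_apply, Matrix.add_mulVec]
          exact W.add_mem (hx ⟨w, hw, rfl⟩) (hy ⟨w, hw, rfl⟩)
        | mul x y _ _ hx hy =>
          rintro _ ⟨w, hw, rfl⟩
          rw [Matrix.toLin'_apply, ← Matrix.mulVec_mulVec]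
          exact hx ⟨_, hy ⟨w, hw, rfl⟩, rfl⟩
      rintro _ ⟨x, hx, rfl⟩
      exact key _ (hR𝒜 x hx)
    · intro M hM
      apply habs.2
      have key : ∀ X ∈ 𝒜, M * X = X * M := by
        intro X hX
        induction hX using Algebra.adjoin_induction with
        | mem X hX => exact hM X hX
        | algebraMap c => exact (Algebra.commutes c M).symm
        | add x y _ _ hx hy => rw [Matrix.mul_add, Matrix.add_mul, hx, hy]
        | mul x y _ _ hx hy => rw [← Matrix.mul_assoc, hx, Matrix.mul_assoc, hy, Matrix.mul_assoc]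
      rintro _ ⟨x, hx, rfl⟩
      exact key _ (hR𝒜 x hx)
  · left
    push Not at hS
    intro x hx
    rw [mem_scalars_iff]
    have hx𝒜 : (x : Matrix ι ι F) ∈ 𝒜 := Algebra.subset_adjoin ⟨x, hx, rfl⟩
    have h0 : ∀ v, v ≠ 0 → cmp C (x : Matrix ι ι F) v = 0 := by
      intro v hv
      obtain ⟨c, hc⟩ := T.cmp_eq habs (x : Matrix ι ι F) v
      by_contra hne
      have hc0 : c ≠ 0 := by rintro rfl; rw [zero_smul] at hc; exact hne hc
      apply hS v hv
      have h1 := hcmp _ hx𝒜 v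
      rw [hc] at h1
      have h3 := Subalgebra.smul_mem _ h1 c⁻¹
      rwa [smul_smul, inv_mul_cancel₀ hc0, one_smul] at h3
    have h1 := T.sum_cmp (x : Matrix ι ι F)
    rw [Finset.sum_eq_single (0 : V2 k) (fun v _ hv => h0 v hv) (fun h => absurd (Finset.mem_univ _) h)] at h1
    obtain ⟨c, hc⟩ := T.cmp_eq habs (x : Matrix ι ι F) 0
    rw [hc] at h1
    have h3 : ∃ d : F, (x : Matrix ι ι F) = d • 1 := by
      rcases T.ker (lft C 0) (φ_lft C 0) with h | h
      · exact ⟨c, by rw [← h1, EE, h]⟩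
      · exact ⟨-c, by rw [← h1, EE, h, smul_neg, neg_smul]⟩
    obtain ⟨d, hd⟩ := h3
    have hd0 : d ≠ 0 := by
      rintro rfl
      rw [zero_smul] at hd
      exact x.ne_zero hd
    exact ⟨Units.mk0 d hd0, hd⟩

/-- An element commuting with `R` modulo scalars is a multiple of an element of `R`. -/
theorem TC.mem_of_commutes [Nonempty ι] (T : TC C q) (habs : ActsAbsolutelyIrreducibly (matrixSet R)) {y : GL ι F}
    (hy : ∀ x ∈ R, x * y * x⁻¹ * y⁻¹ ∈ scalars ι F) : ∃ (x : R) (z : GL ι F), z ∈ scalars ι F ∧ y = z * x := by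
  have h1 : ∀ w : V2 k, ∃ c : F, EE C w * (y : Matrix ι ι F) = c • ((y : Matrix ι ι F) * EE C w) := by
    intro w
    obtain ⟨c, hc⟩ := (mem_scalars_iff _).1 (hy _ (lft C w).2)
    refine ⟨c, ?_⟩
    have h3 : (lft C w : GL ι F) * y = ((lft C w : GL ι F) * y * (lft C w : GL ι F)⁻¹ * y⁻¹) * (y * lft C w) := by group
    have h4 := congrArg (fun g : GL ι F => (g : Matrix ι ι F)) h3
    simp only [Units.val_mul] at h4 hc
    rw [hc, Matrix.smul_mul, Matrix.one_mul] at h4
    exact h4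
  choose c hc using h1
  have hyn : (y : Matrix ι ι F) ≠ 0 := y.ne_zero
  have hne : ∀ w, (y : Matrix ι ι F) * EE C w ≠ 0 := by
    intro w h0
    apply hyn
    calc (y : Matrix ι ι F) = (y : Matrix ι ι F) * EE C w * EI C w := by rw [Matrix.mul_assoc, EE_EI, Matrix.mul_one]
      _ = 0 := by rw [h0, Matrix.zero_mul]
  have hmul : ∀ v w, c (v + w) = c v * c w := by
    intro v w
    obtain ⟨a, ha⟩ := T.EE_mul v w
    have h3 : EE C (v + w) = sF F a • (EE C v * EE C w) := by rw [ha, smul_smul, sF_sq, one_smul]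
    have h4 := hc (v + w)
    rw [h3, Matrix.smul_mul, Matrix.mul_smul, Matrix.mul_assoc, hc w, Matrix.mul_smul, ← Matrix.mul_assoc, hc v,
      Matrix.smul_mul, smul_smul, smul_smul, smul_smul, Matrix.mul_assoc] at h4
    have h5 : (y : Matrix ι ι F) * (EE C v * EE C w) ≠ 0 := by
      rw [ha, Matrix.mul_smul]
      exact smul_ne_zero (sF_ne a) (hne _)
    have h6 := sub_eq_zero.2 h4
    rw [← sub_smul] at h6
    have h7 := sub_eq_zero.1 ((smul_eq_zero.1 h6).resolve_right h5)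
    have h8 : sF F a * (c w * c v) = sF F a * c (v + w) := by linear_combination h7
    rw [← mul_left_cancel₀ (sF_ne a) h8, mul_comm]
  have hc0 : c 0 = 1 := by
    have h3 := hmul 0 0
    rw [add_zero] at h3
    have h4 : c 0 ≠ 0 := by
      intro h0
      have h5 := hc 0
      rw [h0, zero_smul] at h5
      apply hyn
      calc (y : Matrix ι ι F) = EI C 0 * (EE C 0 * (y : Matrix ι ι F)) := by
            rw [← Matrix.mul_assoc, EI_EE, Matrix.one_mul]
        _ = 0 := by rw [h5, Matrix.mul_zero]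
    exact (mul_right_cancel₀ h4 (by rw [one_mul]; exact h3)).symm
  have hcsq : ∀ v, c v * c v = 1 := fun v => by rw [← hmul, v2_two, hc0]
  have hsg : ∀ v, ∃ a : ZMod 2, sF F a = c v := by
    intro v
    rcases mul_self_eq_one_iff.1 (hcsq v) with h | h
    · exact ⟨0, by rw [h, sF_zero]⟩
    · exact ⟨1, by rw [h, sF_one]⟩
  choose f hf using hsg
  obtain ⟨u, hu⟩ := exists_bf_repr f (by
    intro v w
    apply sF_inj T.two
    rw [hf, hmul, sF_mul, hf, hf])
  obtain ⟨d, hd⟩ := T.smul_of_eig habs (M := (y : Matrix ι ι F)) (v := u) (by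
    intro w
    rw [hc, ← hf, hu])
  have hd0 : d ≠ 0 := by
    rintro rfl
    rw [zero_smul] at hd
    exact hyn hd
  let z : GL ι F := Units.map (Matrix.scalar ι : F →+* Matrix ι ι F).toMonoidHom (Units.mk0 d hd0)
  have hz : (z : Matrix ι ι F) = d • 1 := by
    simp [z, Matrix.smul_one_eq_diagonal]
  refine ⟨lft C u, z, ⟨_, rfl⟩, ?_⟩
  apply Units.ext
  rw [Units.val_mul, hz, hd, Matrix.smul_mul, Matrix.one_mul]
  rfl

end Cfsg.Agent.H888.C6
end

-- part: H888/C6/Red2
section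
/-!
# Reduction, part 2: normal subgroups abelian modulo scalars (helper888)
-/

set_option autoImplicit false

namespace Cfsg.Agent.H888.C6

open Cfsg Cfsg.Geo Matrix Cfsg.Agent.ClassicalGeometry.SympBasic Cfsg.Agent.H920
open scoped commutatorElement

variable {ι : Type} [Fintype ι] [DecidableEq ι] {F : Type*} [Field F] {R : Subgroup (GL ι F)} {k : ℕ}
variable {C : Coord R 2 k} {q : V2 k → ZMod 2} {Y : Subgroup (GL ι F)}

theorem scalars_normal : (scalars ι F).Normal := by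
  constructor
  intro z hz g
  rw [← scalars_comm hz, mul_inv_cancel_right]
  exact hz

/-- A 2-group `R` normalising `N`, `|N / scalars|` even: a non-scalar element of `N` commutes with `R` modulo scalars. -/
theorem exists_fixed [Finite F] {N : Subgroup (GL ι F)} (hR2 : IsPGroup 2 R)
    (hn : ∀ x ∈ R, ∀ y ∈ N, x * y * x⁻¹ ∈ N) (hc : 2 ∣ Nat.card (N ⧸ (scalars ι F).subgroupOf N)) :
    ∃ y ∈ N, y ∉ scalars ι F ∧ ∀ x ∈ R, x * y * x⁻¹ * y⁻¹ ∈ scalars ι F := by
  classical
  have hsn : (scalars ι F).Normal := scalars_normal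
  have hfin : Finite (GL ι F) := inferInstance
  let mk : GL ι F →* GL ι F ⧸ scalars ι F := QuotientGroup.mk' _
  let f : N →* GL ι F ⧸ scalars ι F := mk.comp N.subtype
  have hker : f.ker = (scalars ι F).subgroupOf N := by
    ext x
    rw [MonoidHom.mem_ker, Subgroup.mem_subgroupOf]
    change mk (x : GL ι F) = 1 ↔ _
    rw [QuotientGroup.mk'_apply, QuotientGroup.eq_one_iff]
  have hcard : Nat.card f.range = Nat.card (N ⧸ (scalars ι F).subgroupOf N) := by
    rw [← hker]
    exact (Nat.card_congr (QuotientGroup.quotientKerEquivRange f).toEquiv).symm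
  have hmem : ∀ (r : R) (x : f.range), mk r * x * (mk r)⁻¹ ∈ f.range := by
    rintro r ⟨_, y, rfl⟩
    exact ⟨⟨r * y * (r : GL ι F)⁻¹, hn r r.2 y y.2⟩, by
      change mk (r * y * (r : GL ι F)⁻¹) = _
      rw [map_mul, map_mul, map_inv]; rfl⟩
  letI act : MulAction R f.range :=
    { smul := fun r x => ⟨mk r * x * (mk r)⁻¹, hmem r x⟩
      one_smul := fun x => by
        apply Subtype.ext
        change mk ((1 : R) : GL ι F) * x * (mk ((1 : R) : GL ι F))⁻¹ = x
        rw [Subgroup.coe_one, map_one]; group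
      mul_smul := fun r s x => by
        apply Subtype.ext
        change mk ((r * s : R) : GL ι F) * x * (mk ((r * s : R) : GL ι F))⁻¹ = mk r * (mk s * x * (mk s)⁻¹) * (mk r)⁻¹
        rw [Subgroup.coe_mul, map_mul]; group }
  have h1 := hR2.card_modEq_card_fixedPoints f.range
  have h3 : 2 ∣ Nat.card (MulAction.fixedPoints R f.range) := by
    rw [← hcard] at hc
    exact (Nat.modEq_zero_iff_dvd.1 (h1.symm.trans (Nat.modEq_zero_iff_dvd.2 hc)))
  have hone : (1 : f.range) ∈ MulAction.fixedPoints R f.range := by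
    intro r
    apply Subtype.ext
    change mk r * ((1 : f.range) : GL ι F ⧸ scalars ι F) * (mk r)⁻¹ = ((1 : f.range) : GL ι F ⧸ scalars ι F)
    rw [Subgroup.coe_one]; group
  have hpos : 0 < Nat.card (MulAction.fixedPoints R f.range) := by
    haveI : Nonempty (MulAction.fixedPoints R f.range) := ⟨⟨1, hone⟩⟩
    exact Nat.card_pos
  have h4 : 1 < Nat.card (MulAction.fixedPoints R f.range) := by
    obtain ⟨c, hc⟩ := h3
    omega
  haveI : Finite (MulAction.fixedPoints R f.range) := inferInstance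
  rw [Finite.one_lt_card_iff_nontrivial] at h4
  obtain ⟨⟨x, hx⟩, hx1⟩ := exists_ne (⟨1, hone⟩ : MulAction.fixedPoints R f.range)
  obtain ⟨x, y, rfl⟩ := x
  refine ⟨y, y.2, ?_, ?_⟩
  · intro hy
    apply hx1
    apply Subtype.ext
    apply Subtype.ext
    change mk (y : GL ι F) = 1
    rw [QuotientGroup.mk'_apply, QuotientGroup.eq_one_iff]
    exact hy
  · intro r hr
    have h5 := congrArg Subtype.val (hx ⟨r, hr⟩)
    change mk r * mk y * (mk r)⁻¹ = mk y at h5
    rw [← QuotientGroup.eq_one_iff]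
    change mk (r * y * r⁻¹ * (y : GL ι F)⁻¹) = 1
    rw [map_mul, map_mul, map_mul, map_inv, map_inv, h5, mul_inv_cancel]

/-- **Case 1.** -/
theorem YCore.norm_of_abelian [Finite F] [Nonempty ι] (T : TC C q) (hk : 3 ≤ k) (hY : YCore C q Y)
    (habs : ActsAbsolutelyIrreducibly (matrixSet R)) (hR2 : IsPGroup 2 R) (hdim : Fintype.card ι = 2 ^ k)
    {H N : Subgroup (GL ι F)} (hYH : Y ≤ H)
    (hn : ∀ h ∈ H, ∀ x ∈ N, h * x * h⁻¹ ∈ N) (hns : ¬ N ≤ scalars ι F)
    (hcomm : ∀ x ∈ N, ∀ y ∈ N, x * y * x⁻¹ * y⁻¹ ∈ scalars ι F)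
    (hsc : ∀ z ∈ scalars ι F, z ∈ H → z ∈ R) : H ≤ subgroupNormalizer R := by
  classical
  have hNabs : ActsAbsolutelyIrreducibly (matrixSet N) :=
    (hY.scalar_or_absIrr T hk habs N (fun y hy => hn y (hYH hy))).resolve_left hns
  have hNcard := card_quotient_scalars hNabs hcomm
  have h2 : 2 ∣ Nat.card (N ⧸ (scalars ι F).subgroupOf N) := by
    rw [hNcard, hdim, ← pow_mul]
    exact dvd_pow_self 2 (by omega)
  obtain ⟨y, hyN, hys, hy⟩ := exists_fixed hR2 (fun x hx => hn x (hYH (hY.le hx))) h2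
  -- the vectors occurring in N
  let S : Set (V2 k) := {v | ∃ (x : R) (z : GL ι F), z ∈ scalars ι F ∧ z * x ∈ N ∧ C.φ x = v}
  have hall : ∀ v, v ∈ S := by
    apply hY.irr T.isQ hk S
    · rintro _ ⟨x, z, hz, hx, rfl⟩ _ ⟨x', z', hz', hx', rfl⟩
      refine ⟨x * x', z * z', Subgroup.mul_mem _ hz hz', ?_, C.map_mul _ _⟩
      have h1 : z * z' * ((x * x' : R) : GL ι F) = (z * x) * (z' * x') := by
        rw [Subgroup.coe_mul]
        calc z * z' * (x * x') = z * (z' * x) * x' := by group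
          _ = z * (x * z') * x' := by rw [scalars_comm hz']
          _ = _ := by group
      rw [h1]; exact Subgroup.mul_mem _ hx hx'
    · rintro A hA _ ⟨x, z, hz, hx, rfl⟩
      obtain ⟨g, hg, hi⟩ := hY.ind A hA
      obtain ⟨x', h1, h3⟩ := hi x
      refine ⟨x', z, hz, ?_, h3⟩
      have h4 := hn g (hYH hg) _ hx
      have h5 : g * (z * x) * g⁻¹ = z * x' := by
        rw [← h1]
        calc g * (z * x) * g⁻¹ = (g * z) * x * g⁻¹ := by group
          _ = (z * g) * x * g⁻¹ := by rw [scalars_comm hz]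
          _ = _ := by group
      rwa [h5] at h4
    · obtain ⟨x, z, hz, rfl⟩ := T.mem_of_commutes habs hy
      refine ⟨C.φ x, ⟨x, z, hz, hyN, rfl⟩, ?_⟩
      intro h0
      apply hys
      exact Subgroup.mul_mem _ hz ((C.ker_iff x).1 h0)
  have hRN : ∀ x ∈ R, ∃ z ∈ scalars ι F, z * x ∈ N := by
    intro x hx
    obtain ⟨x', z, hz, h1, h3⟩ := hall (C.φ ⟨x, hx⟩)
    have h4 : ((⟨x, hx⟩ * x'⁻¹ : R) : GL ι F) ∈ scalars ι F := by
      rw [← C.ker_iff, C.map_mul, φ_neg_eq, h3, v2_two]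
    rw [Subgroup.coe_mul, Subgroup.coe_inv] at h4
    change x * (x' : GL ι F)⁻¹ ∈ scalars ι F at h4
    refine ⟨z * (x * (x' : GL ι F)⁻¹)⁻¹, Subgroup.mul_mem _ hz (Subgroup.inv_mem _ h4), ?_⟩
    have h5 : z * (x * (x' : GL ι F)⁻¹)⁻¹ * x = z * x' := by group
    rw [h5]; exact h1
  -- elements of N commute with R modulo scalars
  have hNR : ∀ y ∈ N, ∃ (x : R) (z : GL ι F), z ∈ scalars ι F ∧ y = z * x := by
    intro y hy
    apply T.mem_of_commutes habs
    intro x hx
    obtain ⟨z, hz, h1⟩ := hRN x hx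
    have h3 := hcomm _ h1 _ hy
    have h4 : z * x * y * (z * x)⁻¹ * y⁻¹ = x * y * x⁻¹ * y⁻¹ := by
      have hzc := scalars_comm (Subgroup.inv_mem _ hz)
      calc z * x * y * (z * x)⁻¹ * y⁻¹ = z * (x * y * x⁻¹) * z⁻¹ * y⁻¹ := by group
        _ = z * ((x * y * x⁻¹) * z⁻¹) * y⁻¹ := by group
        _ = z * (z⁻¹ * (x * y * x⁻¹)) * y⁻¹ := by rw [← hzc]
        _ = _ := by group
    rwa [h4] at h3
  have hkey : ∀ h ∈ H, ∀ x ∈ R, h * x * h⁻¹ ∈ R := by
    intro h hh x hx
    obtain ⟨z, hz, h1⟩ := hRN x hx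
    obtain ⟨x', z', hz', h3⟩ := hNR _ (hn h hh _ h1)
    have h4 : h * x * h⁻¹ = z⁻¹ * z' * x' := by
      have : h * (z * x) * h⁻¹ = z * (h * x * h⁻¹) := by
        calc h * (z * x) * h⁻¹ = (h * z) * x * h⁻¹ := by group
          _ = (z * h) * x * h⁻¹ := by rw [scalars_comm hz]
          _ = _ := by group
      rw [this] at h3
      calc h * x * h⁻¹ = z⁻¹ * (z * (h * x * h⁻¹)) := by group
        _ = z⁻¹ * (z' * x') := by rw [h3]
        _ = _ := by group
    have h5 : z⁻¹ * z' ∈ scalars ι F := Subgroup.mul_mem _ (Subgroup.inv_mem _ hz) hz'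
    have h6 : z⁻¹ * z' ∈ H := by
      have h7 : z⁻¹ * z' = h * x * h⁻¹ * (x' : GL ι F)⁻¹ := by rw [h4]; group
      rw [h7]
      exact H.mul_mem (H.mul_mem (H.mul_mem hh (hYH (hY.le hx))) (H.inv_mem hh)) (H.inv_mem (hYH (hY.le x'.2)))
    rw [h4]
    exact R.mul_mem (hsc _ h5 h6) x'.2
  intro h hh
  rw [subgroupNormalizer, Subgroup.mem_normalizer_iff]
  intro x
  constructor
  · exact hkey h hh x
  · intro hx
    have := hkey h⁻¹ (H.inv_mem hh) _ hx
    have h1 : h⁻¹ * (h * x * h⁻¹) * h⁻¹⁻¹ = x := by group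
    rwa [h1] at this

end Cfsg.Agent.H888.C6
end

-- part: H888/C6/Red3
section
/-!
# Reduction, part 3 (helper888)

`no_wreath` : no tensor power data.
`exists_coreNS` : an overgroup `H` of `Y` not normalising `R` has a simple absolutely irreducible core.
-/

set_option autoImplicit false

namespace Cfsg.Agent.H888.C6

open Cfsg Cfsg.Geo Matrix Cfsg.Agent.ClassicalGeometry.SympBasic Cfsg.Agent.H920 Cfsg.Agent.H919
open scoped commutatorElement

variable {ι : Type} [Fintype ι] [DecidableEq ι] {F : Type*} [Field F] {R : Subgroup (GL ι F)} {k : ℕ}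
variable {C : Coord R 2 k} {q : V2 k → ZMod 2} {Y : Subgroup (GL ι F)}

/-- numerical estimate -/
theorem wreath_num {k m t : ℕ} (hk : 4 ≤ k) (hm : 2 ≤ m) (ht : 2 ≤ t) (h : m ^ t = 2 ^ k) :
    t * (m ^ 2 - 1) < N0 k ∧ t < N0 k := by
  have h1 : t ≤ 2 ^ (t - 1) := by
    have : t - 1 < 2 ^ (t - 1) := Nat.lt_two_pow_self
    omega
  have h2 : 2 ^ (t - 1) ≤ m ^ (t - 1) := Nat.pow_le_pow_left hm _
  have h3 : m ^ (t - 1) * m = 2 ^ k := by rw [← pow_succ, ← h]; congr 1; omega
  have hm2 : m ^ 2 ≤ 2 ^ k := by rw [← h]; exact Nat.pow_le_pow_right (by omega) ht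
  -- t m^2 ≤ m^(t+1) = 2^k m
  have h4 : t * m ^ 2 ≤ 2 ^ k * m := by
    calc t * m ^ 2 ≤ m ^ (t - 1) * m ^ 2 := Nat.mul_le_mul_right _ (h1.trans h2)
      _ = 2 ^ k * m := by rw [← h3]; ring
  have hn : 16 ≤ 2 ^ k := by
    calc 16 = 2 ^ 4 := by norm_num
      _ ≤ 2 ^ k := Nat.pow_le_pow_right (by norm_num) hk
  -- 4 m ≤ n
  have h5 : 4 * m ≤ 2 ^ k := by
    by_contra hcon
    push Not at hcon
    have h6 : (4 * m) * (4 * m) ≤ 16 * 2 ^ k := by linarith only [hm2]
    have h7 : 2 ^ k * 2 ^ k < (4 * m) * (4 * m) := by nlinarith only [hn, hcon]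
    nlinarith only [hm2, hn, hcon]
  have h8 := two_N0 (k := k) (by omega)
  obtain ⟨n, hn'⟩ : ∃ n, 2 ^ k = n + 2 := ⟨2 ^ k - 2, by omega⟩
  rw [hn'] at h8 h5 h4 hn
  rw [Nat.add_sub_cancel] at h8
  have h9 : 1 ≤ m ^ 2 := Nat.one_le_pow _ _ (by omega)
  have h10 : t * (m ^ 2 - 1) + t = t * m ^ 2 := by
    rw [Nat.mul_sub, mul_one]
    have : t ≤ t * m ^ 2 := Nat.le_mul_of_pos_right _ h9
    omega
  have h11 : 2 * (t * m ^ 2) < 2 * N0 k := by
    rw [h8]
    have : 4 * (t * m ^ 2) ≤ (n + 2) * (n + 2) := by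
      calc 4 * (t * m ^ 2) ≤ 4 * ((n + 2) * m) := Nat.mul_le_mul_left _ h4
        _ = (n + 2) * (4 * m) := by ring
        _ ≤ (n + 2) * (n + 2) := Nat.mul_le_mul_left _ h5
    nlinarith only [hn, this]
  constructor
  · omega
  · have : t ≤ t * m ^ 2 := Nat.le_mul_of_pos_right _ h9
    omega

/-- The vectors in an `R`-invariant subalgebra-like subspace: the number is the dimension. -/
theorem TC.card_vectors [Nonempty ι] (T : TC C q) (habs : ActsAbsolutelyIrreducibly (matrixSet R))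
    (U : Submodule F (Matrix ι ι F))
    (hU : ∀ x ∈ R, ∀ M ∈ U, (x : Matrix ι ι F) * M * ((x⁻¹ : GL ι F) : Matrix ι ι F) ∈ U) :
    Nat.card {v : V2 k // EE C v ∈ U} = Module.finrank F U := by
  classical
  -- the EE are linearly independent
  have hind : LinearIndependent F (EE C) := by
    rw [Fintype.linearIndependent_iff]
    intro g hg v
    have h1 : cmp C (∑ w, g w • EE C w) v = g v • EE C v := by
      have hlin : cmp C (∑ w, g w • EE C w) v = ∑ w, g w • cmp C (EE C w) v := by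
        unfold cmp
        simp only [Matrix.mul_sum, Matrix.sum_mul, Matrix.mul_smul, Matrix.smul_mul, Finset.smul_sum]
        rw [Finset.sum_comm]
        refine Finset.sum_congr rfl fun w _ => Finset.sum_congr rfl fun u _ => ?_
        rw [smul_comm (g w), smul_comm (g w)]
      rw [hlin]
      have hc : ∀ w, cmp C (EE C w) v = if w = v then EE C v else 0 := by
        intro w
        unfold cmp
        have h3 : ∀ u, EE C u * EE C w * EI C u = sF F (bf u w) • EE C w := by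
          intro u
          rw [EE_comm, Matrix.smul_mul, Matrix.mul_assoc, EE_EI, Matrix.mul_one]
        simp only [h3, smul_smul]
        have h4 : ∀ u, sF F (bf u v) * sF F (bf u w) = sF F (bf u (v + w)) := fun u => by
          rw [← sF_mul, bf_add_right]
        simp only [h4]
        rw [← Finset.sum_smul, smul_smul]
        by_cases hwv : w = v
        · rw [if_pos hwv, hwv, v2_two]
          simp only [bf_zero_right, sF_zero]
          rw [Finset.sum_const, Finset.card_univ, card_v2, nsmul_eq_mul, mul_one]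
          push_cast
          rw [inv_mul_cancel₀ (pow_ne_zero _ T.two), one_smul]
        · rw [if_neg hwv]
          have h5 : ∑ u : V2 k, sF F (bf u (v + w)) = 0 := by
            have h6 := sum_sF T.two (u := v + w) (fun h => hwv (v2_eq_of_add h).symm)
            rw [← h6]
            exact Finset.sum_congr rfl fun u _ => by rw [bf_comm]
          rw [h5, mul_zero, zero_smul]
      simp only [hc]
      rw [Finset.sum_eq_single v]
      · rw [if_pos rfl]
      · intro w _ hw; rw [if_neg hw, smul_zero]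
      · intro h; exact absurd (Finset.mem_univ _) h
    rw [hg] at h1
    have h3 : cmp C (0 : Matrix ι ι F) v = 0 := by
      unfold cmp
      simp
    rw [h3] at h1
    exact (smul_eq_zero.1 h1.symm).resolve_right (EE_ne_zero C v)
  -- a basis of U
  have hspan : Submodule.span F (Set.range fun v : {v : V2 k // EE C v ∈ U} => EE C v.1) = U := by
    apply le_antisymm
    · rw [Submodule.span_le]
      rintro _ ⟨v, rfl⟩
      exact v.2
    · intro M hM
      rw [← T.sum_cmp M]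
      apply Submodule.sum_mem
      intro v _
      obtain ⟨c, hc⟩ := T.cmp_eq habs M v
      by_cases hc0 : c = 0
      · rw [hc, hc0, zero_smul]; exact Submodule.zero_mem _
      · rw [hc]
        apply Submodule.smul_mem
        have h1 := cmp_mem C hU hM v
        rw [hc] at h1
        have h3 := U.smul_mem c⁻¹ h1
        rw [smul_smul, inv_mul_cancel₀ hc0, one_smul] at h3
        exact Submodule.subset_span ⟨⟨v, h3⟩, rfl⟩
  have hind' : LinearIndependent F (fun v : {v : V2 k // EE C v ∈ U} => EE C v.1) :=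
    hind.comp Subtype.val Subtype.val_injective
  have h1 := finrank_span_eq_card hind'
  rw [hspan] at h1
  rw [h1, Nat.card_eq_fintype_card]

end Cfsg.Agent.H888.C6
end

-- part: H888/C6/Red4
section
/-!
# Reduction, part 4: no tensor power data; the simple core (helper888)
-/

set_option autoImplicit false

namespace Cfsg.Agent.H888.C6

open Cfsg Cfsg.Geo Matrix Cfsg.Agent.ClassicalGeometry.SympBasic Cfsg.Agent.H920 Cfsg.Agent.H919
open scoped commutatorElement

variable {ι : Type} [Fintype ι] [DecidableEq ι] {F : Type*} [Field F] {R : Subgroup (GL ι F)} {k : ℕ}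
variable {C : Coord R 2 k} {q : V2 k → ZMod 2} {Y : Subgroup (GL ι F)}

/-- the slot as a linear map -/
noncomputable def slotLin {m t : ℕ} (e : ι ≃ (Fin t → Fin m)) (P : GL ι F) (i : Fin t) :
    Matrix (Fin m) (Fin m) F →ₗ[F] Matrix ι ι F where
  toFun x := frameMat e P (slotMat i x)
  map_add' x y := by
    unfold frameMat
    rw [slotMat_add, map_add, Matrix.mul_add, Matrix.add_mul]
  map_smul' c x := by
    unfold frameMat
    rw [slotMat_smul, map_smul, Matrix.mul_smul, Matrix.smul_mul, RingHom.id_apply]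

theorem YCore.no_wreath [Finite F] [Nonempty ι] (T : TC C q) (hk : 4 ≤ k) (hY : YCore C q Y)
    (habs : ActsAbsolutelyIrreducibly (matrixSet R)) (hdim : Fintype.card ι = 2 ^ k)
    {H : Subgroup (GL ι F)} (hYH : Y ≤ H) {m t : ℕ} {e : ι ≃ (Fin t → Fin m)} {P : GL ι F}
    {E : Fin t → Subgroup (GL ι F)} (w : WreathData H m t e P E) : False := by
  classical
  haveI := hY.fact
  have hq := T.isQ
  have hmt : m ^ t = 2 ^ k := by
    rw [← hdim, Fintype.card_congr e, Fintype.card_fun, Fintype.card_fin, Fintype.card_fin]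
  obtain ⟨hnum, hnum'⟩ := wreath_num hk w.two_le_m w.two_le_t hmt
  have hbig := hY.big T (by omega)
  -- the action on the factors
  let 𝓔 : Type _ := ↥(Set.range E)
  haveI : Finite 𝓔 := inferInstance
  haveI : Fintype 𝓔 := Fintype.ofFinite 𝓔
  have hcard𝓔 : Fintype.card 𝓔 ≤ t := by
    have := Fintype.card_le_of_surjective (fun i : Fin t => (⟨E i, i, rfl⟩ : 𝓔)) (by
      rintro ⟨_, i, rfl⟩; exact ⟨i, rfl⟩)
    rwa [Fintype.card_fin] at this
  have hstab : ∀ y ∈ Y, ∀ X ∈ Set.range E, X.map (MulAut.conj y).toMonoidHom ∈ Set.range E := by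
    rintro y hy _ ⟨i, rfl⟩
    obtain ⟨σ, hσ⟩ := w.permuted y (hYH hy)
    exact ⟨σ i, (hσ i).symm⟩
  have hmapone : ∀ X : Subgroup (GL ι F), X.map (MulAut.conj (1 : GL ι F)).toMonoidHom = X := by
    intro X
    rw [map_one]
    exact Subgroup.map_id X
  have hmapmul : ∀ (a b : GL ι F) (X : Subgroup (GL ι F)),
      X.map (MulAut.conj (a * b)).toMonoidHom = (X.map (MulAut.conj b).toMonoidHom).map (MulAut.conj a).toMonoidHom := by
    intro a b X
    rw [Subgroup.map_map, map_mul]; rfl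
  letI act : MulAction Y 𝓔 :=
    { smul := fun y X => ⟨X.1.map (MulAut.conj (y : GL ι F)).toMonoidHom, hstab y y.2 X.1 X.2⟩
      one_smul := fun X => Subtype.ext (hmapone X.1)
      mul_smul := fun a b X => Subtype.ext (hmapmul a b X.1) }
  let f : Y →* Equiv.Perm 𝓔 := MulAction.toPermHom Y 𝓔
  have hfs : ∀ y ∈ (scalars ι F).subgroupOf Y, f y = 1 := by
    intro y hy
    ext1 X
    apply Subtype.ext
    change X.1.map (MulAut.conj (y : GL ι F)).toMonoidHom = X.1
    have : (MulAut.conj (y : GL ι F)) = 1 := by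
      ext1 x
      rw [MulAut.conj_apply, _root_.Cfsg.Agent.H920.scalars_comm (Subgroup.mem_subgroupOf.1 hy), mul_inv_cancel_right]; rfl
    rw [this]
    exact Subgroup.map_id X.1
  let f' : QY Y →* Equiv.Perm 𝓔 := QuotientGroup.lift _ f hfs
  have hRfix : ∀ x ∈ R, ∀ i, (E i).map (MulAut.conj x).toMonoidHom = E i := by
    intro x hx i
    by_contra hne
    have h1 := hbig.perm f' ⟨mkY Y ⟨x, hY.le hx⟩, mem_AY.2 ⟨⟨x, hY.le hx⟩, hx, rfl⟩, by
      intro h1
      apply hne
      have h3 : f ⟨x, hY.le hx⟩ = 1 := h1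
      have h4 := congrArg (fun g : Equiv.Perm 𝓔 => (g ⟨E i, i, rfl⟩ : 𝓔).1) h3
      exact h4⟩
    omega
  -- the algebras
  let 𝒜 : Fin t → Subalgebra F (Matrix ι ι F) := fun i => Algebra.adjoin F (matrixSet (E i))
  have hAle : ∀ i, Module.finrank F (Subalgebra.toSubmodule (𝒜 i)) ≤ m ^ 2 := by
    intro i
    have h1 : Subalgebra.toSubmodule (𝒜 i) ≤ LinearMap.range (slotLin e P i) := by
      intro X hX
      obtain ⟨x, hx⟩ := (w.env_iff i X).1 hX
      exact ⟨x, hx.symm⟩
    calc _ ≤ Module.finrank F (LinearMap.range (slotLin e P i)) := Submodule.finrank_mono h1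
      _ ≤ Module.finrank F (Matrix (Fin m) (Fin m) F) := LinearMap.finrank_range_le _
      _ = m ^ 2 := by rw [Module.finrank_matrix, Fintype.card_fin, Module.finrank_self]; ring
  have hAR : ∀ i, ∀ x ∈ R, ∀ M ∈ Subalgebra.toSubmodule (𝒜 i),
      (x : Matrix ι ι F) * M * ((x⁻¹ : GL ι F) : Matrix ι ι F) ∈ Subalgebra.toSubmodule (𝒜 i) := by
    intro i x hx M hM
    apply conj_adjoin _ hM
    intro y hy
    rw [← hRfix x hx i]
    exact ⟨y, hy, rfl⟩
  have hcardS : ∀ i, Nat.card {v : V2 k // EE C v ∈ Subalgebra.toSubmodule (𝒜 i)} ≤ m ^ 2 := fun i => by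
    rw [T.card_vectors habs _ (hAR i)]; exact hAle i
  have h0 : ∀ i, EE C 0 ∈ Subalgebra.toSubmodule (𝒜 i) := by
    intro i
    rcases T.ker (lft C 0) (φ_lft C 0) with h | h
    · rw [EE, h]; exact Subalgebra.one_mem _
    · rw [EE, h]; exact Subalgebra.neg_mem _ (Subalgebra.one_mem _)
  -- a non-zero vector
  have ht : 0 < t := by have := w.two_le_t; omega
  let i₀ : Fin t := ⟨0, ht⟩
  obtain ⟨v₀, hv₀, hv₀'⟩ : ∃ v, v ≠ 0 ∧ EE C v ∈ Subalgebra.toSubmodule (𝒜 i₀) := by
    by_contra hcon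
    push Not at hcon
    apply w.not_scalar i₀
    intro x hx
    rw [mem_scalars_iff]
    have hx𝒜 : (x : Matrix ι ι F) ∈ Subalgebra.toSubmodule (𝒜 i₀) := Algebra.subset_adjoin ⟨x, hx, rfl⟩
    have h1 : ∀ v, v ≠ 0 → cmp C (x : Matrix ι ι F) v = 0 := by
      intro v hv
      obtain ⟨c, hc⟩ := T.cmp_eq habs (x : Matrix ι ι F) v
      by_contra hne
      have hc0 : c ≠ 0 := by rintro rfl; rw [zero_smul] at hc; exact hne hc
      apply hcon v hv
      have h1 := cmp_mem C (hAR i₀) hx𝒜 v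
      rw [hc] at h1
      have h3 := Submodule.smul_mem _ c⁻¹ h1
      rwa [smul_smul, inv_mul_cancel₀ hc0, one_smul] at h3
    have h3 := T.sum_cmp (x : Matrix ι ι F)
    rw [Finset.sum_eq_single (0 : V2 k) (fun v _ hv => h1 v hv) (fun h => absurd (Finset.mem_univ _) h)] at h3
    obtain ⟨c, hc⟩ := T.cmp_eq habs (x : Matrix ι ι F) 0
    rw [hc] at h3
    have h4 : ∃ d : F, (x : Matrix ι ι F) = d • 1 := by
      rcases T.ker (lft C 0) (φ_lft C 0) with h | h
      · exact ⟨c, by rw [← h3, EE, h]⟩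
      · exact ⟨-c, by rw [← h3, EE, h, smul_neg, neg_smul]⟩
    obtain ⟨d, hd⟩ := h4
    have hd0 : d ≠ 0 := by
      rintro rfl
      rw [zero_smul] at hd
      exact x.ne_zero hd
    exact ⟨Units.mk0 d hd0, hd⟩
  -- all vectors of the same type occur
  have hcover : ∀ v, v ≠ 0 → q v = q v₀ → ∃ i, EE C v ∈ Subalgebra.toSubmodule (𝒜 i) := by
    intro v hv hqv
    obtain ⟨A, hA, hA'⟩ := hq.Wq_trans (by omega) hv₀ hv hqv.symm
    obtain ⟨g, hg, hi⟩ := hY.ind A hA
    obtain ⟨σ, hσ⟩ := w.permuted g (hYH hg)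
    refine ⟨σ i₀, ?_⟩
    obtain ⟨a, ha⟩ := YCore.conj_EE T hi v₀
    have h1 : EE C v = sF F a • ((g : Matrix ι ι F) * EE C v₀ * ((g⁻¹ : GL ι F) : Matrix ι ι F)) := by
      rw [ha, smul_smul, sF_sq, one_smul, hA']
    rw [h1]
    apply Submodule.smul_mem
    have h3 : ∀ M ∈ 𝒜 i₀, (g : Matrix ι ι F) * M * ((g⁻¹ : GL ι F) : Matrix ι ι F) ∈ 𝒜 (σ i₀) := by
      intro M hM
      have hgg : ((g⁻¹ : GL ι F) : Matrix ι ι F) * (g : Matrix ι ι F) = 1 := by
        rw [← Units.val_mul, inv_mul_cancel]; rfl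
      induction hM using Algebra.adjoin_induction with
      | mem M hM =>
        obtain ⟨x, hx, rfl⟩ := hM
        apply Algebra.subset_adjoin
        refine ⟨g * x * g⁻¹, ?_, by simp only [Units.val_mul]⟩
        rw [← hσ]
        exact ⟨x, hx, rfl⟩
      | algebraMap c =>
        have : (g : Matrix ι ι F) * (algebraMap F (Matrix ι ι F) c) * ((g⁻¹ : GL ι F) : Matrix ι ι F) =
            algebraMap F (Matrix ι ι F) c := by
          rw [← Algebra.commutes, Matrix.mul_assoc, ← Units.val_mul, mul_inv_cancel, Units.val_one, Matrix.mul_one]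
        rw [this]
        exact Subalgebra.algebraMap_mem _ c
      | add x y _ _ hx hy =>
        rw [Matrix.mul_add, Matrix.add_mul]
        exact Subalgebra.add_mem _ hx hy
      | mul x y _ _ hx hy =>
        have : (g : Matrix ι ι F) * (x * y) * ((g⁻¹ : GL ι F) : Matrix ι ι F) =
            ((g : Matrix ι ι F) * x * ((g⁻¹ : GL ι F) : Matrix ι ι F)) *
              ((g : Matrix ι ι F) * y * ((g⁻¹ : GL ι F) : Matrix ι ι F)) := by
          calc (g : Matrix ι ι F) * (x * y) * ((g⁻¹ : GL ι F) : Matrix ι ι F)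
              = (g : Matrix ι ι F) * x * 1 * y * ((g⁻¹ : GL ι F) : Matrix ι ι F) := by
                rw [Matrix.mul_one]; simp only [Matrix.mul_assoc]
            _ = _ := by rw [← hgg]; simp only [Matrix.mul_assoc]
        rw [this]
        exact Subalgebra.mul_mem _ hx hy
    exact h3 _ hv₀'
  -- counting
  let O : Finset (V2 k) := Finset.univ.filter fun v => v ≠ 0 ∧ q v = q v₀
  have hO : N0 k ≤ O.card := by
    rcases z2 (q v₀) with h | h
    · apply N0_le' (by omega)
      have h1 := hq.two_card_zero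
      have h3 : Fintype.card {v : V2 k // q v = 0} ≤ O.card + 1 := by
        rw [Fintype.card_subtype]
        have : (Finset.univ.filter fun v : V2 k => q v = 0) ⊆ insert 0 O := by
          intro v hv
          rw [Finset.mem_filter] at hv
          rw [Finset.mem_insert]
          by_cases hv0 : v = 0
          · exact Or.inl hv0
          · right
            rw [Finset.mem_filter]
            exact ⟨Finset.mem_univ _, hv0, by rw [hv.2, h]⟩
        exact (Finset.card_le_card this).trans (Finset.card_insert_le _ _)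
      omega
    · apply N0_le (by omega)
      have h1 := hq.two_card_one
      have h3 : Fintype.card {v : V2 k // q v = 1} ≤ O.card := by
        rw [Fintype.card_subtype]
        apply Finset.card_le_card
        intro v hv
        rw [Finset.mem_filter] at hv ⊢
        exact ⟨Finset.mem_univ _, hq.ne_zero hv.2, by rw [hv.2, h]⟩
      omega
  let S : Fin t → Finset (V2 k) := fun i => Finset.univ.filter fun v => v ≠ 0 ∧ EE C v ∈ Subalgebra.toSubmodule (𝒜 i)
  have hS : ∀ i, (S i).card ≤ m ^ 2 - 1 := by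
    intro i
    have h1 : (insert 0 (S i)).card ≤ m ^ 2 := by
      refine le_trans ?_ (hcardS i)
      rw [Nat.card_eq_fintype_card, Fintype.card_subtype]
      apply Finset.card_le_card
      intro v hv
      rw [Finset.mem_insert] at hv
      rw [Finset.mem_filter]
      rcases hv with rfl | hv
      · exact ⟨Finset.mem_univ _, h0 i⟩
      · rw [Finset.mem_filter] at hv
        exact ⟨Finset.mem_univ _, hv.2.2⟩
    rw [Finset.card_insert_of_notMem (by
      intro h
      rw [Finset.mem_filter] at h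
      exact h.2.1 rfl)] at h1
    omega
  have hsub : O ⊆ Finset.univ.biUnion S := by
    intro v hv
    rw [Finset.mem_filter] at hv
    obtain ⟨i, hi⟩ := hcover v hv.2.1 hv.2.2
    rw [Finset.mem_biUnion]
    exact ⟨i, Finset.mem_univ _, Finset.mem_filter.2 ⟨Finset.mem_univ _, hv.2.1, hi⟩⟩
  have h5 : O.card ≤ t * (m ^ 2 - 1) := by
    calc O.card ≤ (Finset.univ.biUnion S).card := Finset.card_le_card hsub
      _ ≤ ∑ i, (S i).card := Finset.card_biUnion_le
      _ ≤ ∑ _i : Fin t, (m ^ 2 - 1) := Finset.sum_le_sum fun i _ => hS i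
      _ = t * (m ^ 2 - 1) := by rw [Finset.sum_const, Finset.card_univ, Fintype.card_fin, smul_eq_mul]
  omega

/-- **The simple core of an overgroup.** -/
theorem YCore.exists_coreNS [Finite F] [Nonempty ι] (T : TC C q) (hk : 4 ≤ k) (hY : YCore C q Y)
    (habs : ActsAbsolutelyIrreducibly (matrixSet R)) (hR2 : IsPGroup 2 R) (hdim : Fintype.card ι = 2 ^ k)
    {H : Subgroup (GL ι F)} (hYH : Y ≤ H) (hsc : ∀ z ∈ scalars ι F, z ∈ H → z ∈ R)
    (hH : ¬ H ≤ subgroupNormalizer R) : ∃ P : Subgroup (GL ι F), CoreNS H P := by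
  have hirr : ActsIrreducibly (matrixSet H) := by
    intro W hW
    apply habs.1
    rintro _ ⟨x, hx, rfl⟩
    exact hW _ ⟨x, hYH (hY.le hx), rfl⟩
  have hcard : 2 ≤ Fintype.card ι := by
    rw [hdim]
    calc 2 = 2 ^ 1 := by norm_num
      _ ≤ 2 ^ k := Nat.pow_le_pow_right (by norm_num) (by omega)
  rcases C_split H hirr hcard (fun N _ hN => hY.scalar_or_absIrr T (by omega) habs N (fun y hy => hN y (hYH hy))) with
    ⟨N, _, hn, hns, hcomm⟩ | ⟨m, t, e, P, E, w⟩ | h
  · exact absurd (hY.norm_of_abelian T (by omega) habs hR2 hdim hYH hn hns hcomm hsc) hH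
  · exact (hY.no_wreath T hk habs hdim hYH w).elim
  · exact h

end Cfsg.Agent.H888.C6
end

private theorem dce_96ded4658956 : _root_.True := by
  try have : _root_.True := by simp only [_root_.Cfsg.Agent.H888.C6.EE.eq_1]
  try have : _root_.True := by simp only [_root_.Cfsg.Agent.H888.C6.EI.eq_1]
  try have : _root_.True := by simp only [_root_.Cfsg.Agent.H888.C6.bf.eq_1]
  exact _root_.True.intro
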